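import Mathlib.RingTheory.Polynomial.Cyclotomic.Factorization
import Mathlib.Algebra.Module.ZMod
import Mathlib.LinearAlgebra.FiniteDimensional.Basic
import Mathlib.LinearAlgebra.Basis.VectorSpace

/-!
Linear algebra for groups with three automorphism orbits: a fixed-point-free operator `T` of prime
order `q` on a finite `𝔽_p`-space. `orderOf_eq_of_trans`: if additive automorphisms normalizing
`⟨T⟩` are transitive on nonzero vectors and induce all power maps on `⟨T⟩`, then `p` is a primitive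
root modulo `q`; `trans_of_orderOf_eq`: the converse.
-/

namespace Cfsg.Agent.Gen2

open Polynomial

variable {p q : ℕ} [hp : Fact p.Prime] [hq : Fact q.Prime] {V : Type*} [AddCommGroup V]
  [Module (ZMod p) V] {T : Module.End (ZMod p) V}

theorem aeval_cyclotomic_eq_zero (hT : T ^ q = 1) (hf : ∀ v, T v = v → v = 0) :
    aeval T (cyclotomic q (ZMod p)) = 0 := by
  have := congrArg (aeval T) (cyclotomic_prime_mul_X_sub_one (ZMod p) q)
  rw [mul_comm, map_mul, map_sub, map_sub, map_pow, aeval_X, hT, map_one, sub_self] at this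
  exact LinearMap.ext fun v => hf _ (sub_eq_zero.1 (LinearMap.congr_fun this v))

theorem map_aeval_of_comm {S : Module.End (ZMod p) V} (A : V ≃+ V) (h : ∀ u, A (T u) = S (A u))
    (f : (ZMod p)[X]) (u : V) : A (aeval T f u) = aeval S f (A u) := by
  induction f using Polynomial.induction_on with
  | C a => simp [ZMod.map_smul A]
  | add f g h1 h2 => simp [h1, h2]
  | monomial n a ih =>
    rw [pow_succ', mul_left_comm, map_mul _ X, map_mul _ X, aeval_X, aeval_X, Module.End.mul_apply,
      Module.End.mul_apply, h, ih]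

omit hp in
theorem orderOf_unit (h : p.Coprime q) :
    orderOf (ZMod.unitOfCoprime (p ^ 1) (h.pow_left 1)) = orderOf (p : ZMod q) := by
  rw [← orderOf_units, ZMod.coe_unitOfCoprime, pow_one]

theorem orderOf_eq_of_trans [Finite V] [Nontrivial V] (hne : p ≠ q) (hT : T ^ q = 1)
    (hf : ∀ v, T v = v → v = 0)
    (h1 : ∀ v w : V, v ≠ 0 → w ≠ 0 → ∃ (A : V ≃+ V) (i : ℕ), A v = w ∧
      ∀ u, A (T u) = (T ^ i) (A u))
    (h2 : ∀ i, ¬ q ∣ i → ∃ A : V ≃+ V, ∀ u, A (T u) = (T ^ i) (A u)) :
    orderOf (p : ZMod q) = q - 1 := by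
  classical
  have co : p.Coprime q := (Nat.coprime_primes hp.out hq.out).2 hne
  have : NeZero (q : ZMod p) := ⟨by
    rw [Ne, ZMod.natCast_eq_zero_iff]; exact hp.out.coprime_iff_not_dvd.1 co⟩
  have h0 := aeval_cyclotomic_eq_zero hT hf
  obtain ⟨f, hfi, ⟨k, hk⟩, v, v0, hv⟩ : ∃ f : (ZMod p)[X], Irreducible f ∧
      f ∣ cyclotomic q (ZMod p) ∧ ∃ v, v ≠ 0 ∧ aeval T f v = 0 := by
    have : ∀ g : (ZMod p)[X], g ≠ 0 → (∀ f, Irreducible f → f ∣ g → ∀ v, aeval T f v = 0 → v = 0) →
        ∀ v, aeval T g v = 0 → v = 0 := fun g => by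
      induction g using WfDvdMonoid.induction_on_irreducible with
      | zero => simp
      | unit u hu =>
        exact fun _ _ v hv => ((Module.End.isUnit_iff _).1 (hu.map (aeval T))).1 (by simpa using hv)
      | mul a i ha hi ih =>
        intro _ h v hv
        rw [map_mul] at hv
        exact ih ha (fun f h1 h2 => h f h1 (h2.mul_left i)) v (h i hi (dvd_mul_right _ _) _ hv)
    by_contra! h
    obtain ⟨v, hv⟩ := exists_ne (0 : V)
    exact hv (this _ (cyclotomic_ne_zero q _) (fun f h1 h2 v => not_imp_not.1 (h f h1 h2 v)) v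
      (by simp [h0]))
  obtain ⟨a, b, hab⟩ : IsCoprime f k := (hk ▸ separable_cyclotomic q (ZMod p)).isCoprime
  have cop : ∀ u, aeval T f u = 0 → aeval T k u = 0 → u = 0 := fun u e1 e2 => by
    simpa [e1, e2] using (LinearMap.congr_fun (congrArg (aeval T) hab) u).symm
  have comm : ∀ (g g' : (ZMod p)[X]) u, aeval T g (aeval T g' u) = aeval T g' (aeval T g u) :=
    fun g g' u => by rw [← Module.End.mul_apply, ← map_mul, mul_comm, map_mul, Module.End.mul_apply]
  have le : ∀ v w : V, v ≠ 0 → w ≠ 0 → (Set.range fun g : (ZMod p)[X] => aeval T g v).ncard ≤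
      (Set.range fun g : (ZMod p)[X] => aeval T g w).ncard := fun v w hv hw => by
    obtain ⟨A, i, rfl, hA⟩ := h1 v w hv hw
    refine Set.ncard_le_ncard_of_injOn A ?_ A.injective.injOn
    rintro _ ⟨g, rfl⟩
    exact ⟨g.comp (X ^ i), by simp only [aeval_comp, map_pow, aeval_X, map_aeval_of_comm A hA]⟩
  have hf0 : aeval T f = 0 := LinearMap.ext fun u => by
    have k0 : aeval T k (aeval T f u) = 0 := by
      rw [← Module.End.mul_apply, ← map_mul, mul_comm, ← hk, h0, LinearMap.zero_apply]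
    have e : aeval T k (v + aeval T f u) = aeval T k v := by rw [map_add, k0, add_zero]
    have a0 : aeval T k v ≠ 0 := fun h => v0 (cop v hv h)
    have sub : (Set.range fun g : (ZMod p)[X] => aeval T g (aeval T k v)) ⊆
        Set.range fun g : (ZMod p)[X] => aeval T g (v + aeval T f u) := by
      rintro _ ⟨g, rfl⟩
      exact ⟨g * k, by simp only [map_mul, Module.End.mul_apply, e]⟩
    obtain ⟨g, hg⟩ := (Set.eq_of_subset_of_ncard_le sub (le _ _ (fun h => a0 (by
      rw [← e, h, map_zero])) a0)).ge ⟨1, rfl⟩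
    have := congrArg (aeval T f) hg
    simp only [comm f g, comm f k, hv, map_zero, map_one, Module.End.one_apply, map_add,
      zero_add] at this
    exact cop _ this.symm k0
  have dv : ∀ i, ¬ q ∣ i → f ∣ f.comp (X ^ i) := fun i hi => by
    obtain ⟨A, hA⟩ := h2 i hi
    by_contra hn
    obtain ⟨a, b, e⟩ := hfi.coprime_iff_not_dvd.2 hn
    have := map_aeval_of_comm A hA f v
    rw [hv, map_zero] at this
    have e2 := LinearMap.congr_fun (congrArg (aeval T) e) (A v)
    simp only [map_add, map_mul, hf0, aeval_comp, map_pow, aeval_X, LinearMap.add_apply,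
      Module.End.mul_apply, ← this, map_zero, map_one, LinearMap.zero_apply, add_zero,
      Module.End.one_apply] at e2
    exact v0 (by simpa using e2.symm)
  have := Fact.mk hfi
  have pr : IsPrimitiveRoot (AdjoinRoot.root f) q := by
    have : NeZero (q : AdjoinRoot f) := NeZero.of_faithfulSMul (ZMod p) _ q
    rw [← isRoot_cyclotomic_iff, ← map_cyclotomic q (algebraMap (ZMod p) _), IsRoot.def,
      eval_map_algebraMap, hk, map_mul, AdjoinRoot.aeval_eq, AdjoinRoot.mk_self, zero_mul]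
  have deg : q - 1 ≤ f.natDegree := by
    have := card_le_degree_of_subset_roots (p := f.map (algebraMap _ (AdjoinRoot f)))
      (Z := (Finset.Ico 1 q).image (AdjoinRoot.root f ^ ·)) fun z hz => by
        obtain ⟨i, hi, rfl⟩ := Finset.mem_image.1 (Finset.mem_def.2 hz)
        rw [Finset.mem_Ico] at hi
        obtain ⟨c, hc⟩ := dv i (Nat.not_dvd_of_pos_of_lt hi.1 hi.2)
        have := congrArg (aeval (AdjoinRoot.root f)) hc
        rw [aeval_comp, map_pow, aeval_X, map_mul, AdjoinRoot.aeval_eq f, AdjoinRoot.mk_self,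
          zero_mul] at this
        rwa [mem_roots (map_ne_zero hfi.ne_zero), IsRoot.def, eval_map_algebraMap]
    rwa [Finset.card_image_of_injOn fun i hi j hj => pr.pow_inj (Finset.mem_Ico.1 hi).2
      (Finset.mem_Ico.1 hj).2, Nat.card_Ico, natDegree_map] at this
  rw [← orderOf_unit co, ← natDegree_of_dvd_cyclotomic_of_irreducible (by simp) co ⟨k, hk⟩ hfi]
  refine le_antisymm ?_ deg
  rw [← Nat.totient_prime hq.out, ← natDegree_cyclotomic q (ZMod p)]
  exact natDegree_le_of_dvd ⟨k, hk⟩ (cyclotomic_ne_zero q _)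

theorem trans_of_orderOf_eq [Finite V] (hne : p ≠ q) (hT : T ^ q = 1)
    (hf : ∀ v, T v = v → v = 0) (ho : orderOf (p : ZMod q) = q - 1) :
    (∀ v w : V, v ≠ 0 → w ≠ 0 → ∃ A : V ≃+ V, A v = w ∧ ∀ u, A (T u) = T (A u)) ∧
    ∀ i, ¬ q ∣ i → ∃ A : V ≃+ V, ∀ u, A (T u) = (T ^ i) (A u) := by
  have co : p.Coprime q := (Nat.coprime_primes hp.out hq.out).2 hne
  have : NeZero (q : ZMod p) := ⟨by
    rw [Ne, ZMod.natCast_eq_zero_iff]; exact hp.out.coprime_iff_not_dvd.1 co⟩
  have : Fact (Irreducible (cyclotomic q (ZMod p))) :=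
    ⟨irreducible_of_dvd_cyclotomic_of_natDegree (f := 1) (by simp) co dvd_rfl
      (by rw [orderOf_unit co, ho, natDegree_cyclotomic, Nat.totient_prime hq.out])⟩
  let L := AdjoinRoot (cyclotomic q (ZMod p))
  let ρ : L →+* Module.End (ZMod p) V := Ideal.Quotient.lift _ (aeval T).toRingHom fun a ha => by
    obtain ⟨c, rfl⟩ := Ideal.mem_span_singleton.1 ha
    simp [aeval_cyclotomic_eq_zero hT hf]
  let _ : Module L V := Module.compHom V ρ
  have : Module.Finite L V := Module.Finite.of_finite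
  have hζ : ∀ u : V, (AdjoinRoot.root _ : L) • u = T u := fun u =>
    LinearMap.congr_fun (aeval_X (R := ZMod p) T) u
  refine ⟨fun v w hv hw => ?_, fun i hi => ?_⟩
  · obtain ⟨g, hg⟩ := Submodule.exists_linearEquiv_restrict_eq
      ((LinearEquiv.toSpanNonzeroSingleton L V v hv).symm.trans
        (LinearEquiv.toSpanNonzeroSingleton L V w hw))
    refine ⟨g.toAddEquiv, ?_, fun u => by simp [← hζ]⟩
    have := hg (LinearEquiv.toSpanNonzeroSingleton L V v hv 1)
    rw [LinearEquiv.trans_apply, LinearEquiv.symm_apply_apply] at this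
    simpa using this.symm
  have pr : IsPrimitiveRoot (AdjoinRoot.root _ : L) q := by
    have : NeZero (q : L) := NeZero.of_faithfulSMul (ZMod p) _ q
    rw [← isRoot_cyclotomic_iff, ← map_cyclotomic q (algebraMap (ZMod p) L), IsRoot.def,
      eval_map_algebraMap, AdjoinRoot.aeval_eq, AdjoinRoot.mk_self]
  have := (cyclotomic.monic q (ZMod p)).finite_adjoinRoot
  have : Finite L := Module.finite_of_finite (ZMod p)
  let σ : L →+* L := AdjoinRoot.lift (algebraMap _ _) (AdjoinRoot.root _ ^ i) (by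
    have := (pr.pow_of_coprime i (hq.out.coprime_iff_not_dvd.2 hi).symm).isRoot_cyclotomic hq.out.pos
    rwa [← map_cyclotomic q (algebraMap (ZMod p) L), IsRoot.def, eval_map] at this)
  let e := (Module.finBasis L V).equivFun.toAddEquiv
  let σ' := (RingEquiv.ofBijective σ (Finite.injective_iff_bijective.1 σ.injective)).toAddEquiv
  refine ⟨e.trans ((AddEquiv.piCongrRight fun _ => σ').trans e.symm), fun u => ?_⟩
  have : ∀ (n : ℕ) (u : V), (T ^ n) u = (AdjoinRoot.root _ : L) ^ n • u := fun n u => by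
    induction n with
    | zero => simp
    | succ n ih => rw [pow_succ', pow_succ', Module.End.mul_apply, ih, mul_smul, hζ]
  rw [this, ← hζ]
  apply e.injective
  have hσ : σ (AdjoinRoot.root _) = AdjoinRoot.root _ ^ i := AdjoinRoot.lift_root _
  ext j
  simp [e, σ', hσ, Finset.mul_sum, mul_assoc]

/-- Multiplicative form of `orderOf_eq_of_trans` and `trans_of_orderOf_eq`. -/
theorem orderOf_eq_iff_trans {W : Type*} [CommGroup W] [Finite W] [Nontrivial W] (hne : p ≠ q)
    (hW : ∀ v : W, v ^ p = 1) {τ : MulAut W} (hτ : τ ^ q = 1) (hf : ∀ v, τ v = v → v = 1) :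
    (orderOf (p : ZMod q) = q - 1 →
      (∀ v w : W, v ≠ 1 → w ≠ 1 → ∃ A : MulAut W, A v = w ∧ ∀ u, A (τ u) = τ (A u)) ∧
      ∀ i, ¬ q ∣ i → ∃ A : MulAut W, ∀ u, A (τ u) = (τ ^ i) (A u)) ∧
    ((∀ v w : W, v ≠ 1 → w ≠ 1 → ∃ (A : MulAut W) (i : ℕ), A v = w ∧
      ∀ u, A (τ u) = (τ ^ i) (A u)) →
    (∀ i, ¬ q ∣ i → ∃ A : MulAut W, ∀ u, A (τ u) = (τ ^ i) (A u)) →
      orderOf (p : ZMod q) = q - 1) := by
  have : Module (ZMod p) (Additive W) := AddCommGroup.zmodModule hW
  let T : Additive W →ₗ[ZMod p] Additive W :=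
    (MonoidHom.toAdditive τ.toMonoidHom).toZModLinearMap p
  have e : ∀ (i : ℕ) (u : W), (T ^ i) (Additive.ofMul u) = Additive.ofMul ((τ ^ i) u) :=
    fun i u => by
      induction i with
      | zero => rfl
      | succ i ih => rw [pow_succ', pow_succ', Module.End.mul_apply, ih]; rfl
  have hT : T ^ q = 1 := LinearMap.ext fun u => (e q u).trans (by rw [hτ]; rfl)
  refine ⟨fun h => ?_, fun h1 h2 => orderOf_eq_of_trans hne hT hf (fun v w hv hw => ?_)
    fun i hi => ?_⟩
  · obtain ⟨h1, h2⟩ := trans_of_orderOf_eq hne hT hf h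
    exact ⟨fun v w hv hw => (h1 v w hv hw).elim fun A h => ⟨MulEquiv.toAdditive.symm A, h⟩,
      fun i hi => (h2 i hi).elim fun A h =>
        ⟨MulEquiv.toAdditive.symm A, fun u => (h u).trans (e i _)⟩⟩
  · obtain ⟨A, i, h3, h4⟩ := h1 v w hv hw
    exact ⟨MulEquiv.toAdditive A, i, h3, fun u => (h4 u).trans (e i _).symm⟩
  · obtain ⟨A, h4⟩ := h2 i hi
    exact ⟨MulEquiv.toAdditive A, fun u => (h4 u).trans (e i _).symm⟩

end Cfsg.Agent.Gen2
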