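import Cfsg.Agent.Gen2.FixCount
import Cfsg.Agent.BG.Base6

/-!
Class sizes modulo a central subgroup (helper28): `cs_central` (the class size of `x` is the class size
of `xN` times a divisor of `|N|`), and the set `ppSet p G` of elements whose class size is a power of `p`:
`|ppSet p G| = p * |ppSet p (G/N)|` for `N` central of order `p`, and `p ∣ |ppSet p G| ↔ p ∣ |Z(G)|`.
-/

namespace Cfsg.Agent.Gen2

open Subgroup Cfsg.Agent.BG
open scoped commutatorElement

variable {G : Type*} [Group G] {p : ℕ}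

theorem cs_central [Finite G] (N : Subgroup G) [N.Normal] (hN : N ≤ center G) (x : G) :
    ∃ m, m ∣ Nat.card N ∧ C1[x].index = m * C1[(x : G ⧸ N)].index ∧
      (m = 1 → ∀ g : G, ⁅g, x⁆ ∈ N → ⁅g, x⁆ = 1) := by
  let D := C1[(x : G ⧸ N)].comap (QuotientGroup.mk' N)
  have hD : ∀ g : G, g ∈ D ↔ ⁅g, x⁆ ∈ N := fun g => by
    rw [← QuotientGroup.eq_one_iff (N := N), mem_comap, mem_centralizer_singleton_iff,
      ← commute_iff_eq, ← commutatorElement_eq_one_iff_commute]
    rfl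
  have hle : C1[x] ≤ D := fun g hg => (hD g).2 (by
    rw [commutatorElement_eq_one_iff_mul_comm.2 (mem_centralizer_singleton_iff.1 hg)]; exact one_mem _)
  let f : D →* N := MonoidHom.mk' (fun g => ⟨⁅(g : G), x⁆, (hD g).1 g.2⟩) fun a b => Subtype.ext (by
    have h1 := mem_center_iff.1 (hN ((hD _).1 b.2))
    change ⁅(a : G) * b, x⁆ = ⁅(a : G), x⁆ * ⁅(b : G), x⁆
    rw [h1, show ⁅(a : G) * b, x⁆ = a * ⁅(b : G), x⁆ * (a : G)⁻¹ * ⁅(a : G), x⁆ by
      simp only [commutatorElement_def]; group, h1, mul_inv_cancel_right])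
  have hk : f.ker = C1[x].subgroupOf D := by
    ext g
    rw [MonoidHom.mem_ker, mem_subgroupOf, mem_centralizer_singleton_iff,
      ← commutatorElement_eq_one_iff_mul_comm, Subtype.ext_iff]
    rfl
  refine ⟨C1[x].relIndex D, ?_, ?_, fun h g hg => ?_⟩
  · rw [relIndex, ← hk, index_ker]
    exact card_subgroup_dvd_card _
  · rw [← relIndex_mul_index hle, index_comap_of_surjective _ (QuotientGroup.mk'_surjective N)]
  · exact commutatorElement_eq_one_iff_mul_comm.2
      (mem_centralizer_singleton_iff.1 (relIndex_eq_one.1 h ((hD g).2 hg)))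

/-- The elements whose class size is a power of `p`. -/
def ppSet (p : ℕ) (G : Type*) [Group G] : Set G := {x | ∃ k, C1[x].index = p ^ k}

theorem ncard_ppSet_quotient [Finite G] (hp : p.Prime) (N : Subgroup G) [N.Normal] (hN : N ≤ center G)
    (hc : Nat.card N = p) : (ppSet p G).ncard = p * (ppSet p (G ⧸ N)).ncard := by
  have : ppSet p G = QuotientGroup.mk ⁻¹' ppSet p (G ⧸ N) := by
    ext x
    refine ⟨fun ⟨k, hk⟩ => ?_, fun ⟨k, hk⟩ => ?_⟩
    · obtain ⟨j, -, hj⟩ := (Nat.dvd_prime_pow hp).1 (hk ▸ cs_quotient_dvd N x)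
      exact ⟨j, hj⟩
    · obtain ⟨m, hm, h, -⟩ := cs_central N hN x
      rw [hc, Nat.dvd_prime hp] at hm
      rcases hm with rfl | rfl
      · exact ⟨k, by rw [h, hk, one_mul]⟩
      · exact ⟨k + 1, by rw [h, hk, pow_succ']⟩
  rw [this, ← Nat.card_coe_set_eq, QuotientGroup.card_preimage_mk, hc, Nat.card_coe_set_eq]

theorem dvd_ncard_ppSet_iff [Finite G] : p ∣ (ppSet p G).ncard ↔ p ∣ Nat.card (center G) := by
  have h1 : (center G : Set G) ⊆ ppSet p G := fun x hx => ⟨0, cs_eq_one_iff.2 hx⟩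
  have h2 : p ∣ (ppSet p G \ center G).ncard := by
    refine dvd_ncard_of_forall_dvd_orbit (G := ConjAct G) _ ?_ ?_
    · rintro g b ⟨⟨k, hk⟩, hb⟩
      exact ⟨⟨k, (cs_conj _ _).trans hk⟩, fun h =>
        hb (cs_eq_one_iff.1 ((cs_conj _ _).symm.trans (cs_eq_one_iff.2 h)))⟩
    · rintro b ⟨⟨k, hk⟩, hb⟩
      rw [ConjAct.stabilizer_eq_centralizer]
      change p ∣ C1[b].index
      rw [hk]
      exact dvd_pow_self _ (by rintro rfl; exact hb (cs_eq_one_iff.1 hk))
  rw [← Set.ncard_sdiff_add_ncard_of_subset h1, Nat.dvd_add_right h2]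
  rfl

end Cfsg.Agent.Gen2
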