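import Cfsg.Agent.PLocal.Basic
import Mathlib.RepresentationTheory.Invariants
import Mathlib.LinearAlgebra.Eigenspace.Triangularizable
import Mathlib.FieldTheory.IsAlgClosed.AlgebraicClosure
import Mathlib.RingTheory.IntegralDomain
import Mathlib.RingTheory.Flat.Basic

/-! Frobenius-type groups of linear maps: `FN F N H` (`H` fixed-point-free on `N ≤ F`, `F` nilpotent,
`FH` the whole group); for a module without `N`-fixed vectors, `|H| ∣ dim W` and
`|H| · dim C_W(H) ≤ dim W` (`df`), over any field with `|N| ≠ 0`. -/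

set_option autoImplicit false

namespace Cfsg.Agent.Gen2.FrobFree

open Subgroup Module

universe v

theorem exists_eigen {K W M : Type*} [Field K] [IsAlgClosed K] [AddCommGroup W] [Module K W] [FiniteDimensional K W]
    [Group M] (ρ : Representation K M W) (hc : ∀ a b, Commute (ρ a) (ρ b)) {Y : Submodule K W} (h0 : Y ≠ ⊥)
    (hY : ∀ m, ∀ y ∈ Y, ρ m y ∈ Y) : ∃ v ∈ Y, v ≠ 0 ∧ ∃ χ : M →* Kˣ, ∀ m, ρ m v = (χ m : K) • v := by
  obtain ⟨Z, ⟨hZ, hZ0, hZi⟩, hmin⟩ := exists_minimal_of_wellFoundedLT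
    (fun Z : Submodule K W => Z ≤ Y ∧ Z ≠ ⊥ ∧ ∀ m, ∀ y ∈ Z, ρ m y ∈ Z) ⟨Y, le_rfl, h0, hY⟩
  obtain ⟨v, hv, hv0⟩ := Submodule.exists_mem_ne_zero_of_ne_bot hZ0
  have h : ∀ m, ∃ c : K, ρ m v = c • v := fun m => by
    have : Nontrivial Z := Submodule.nontrivial_iff_ne_bot.2 hZ0
    obtain ⟨c, hc'⟩ := Module.End.exists_eigenvalue ((ρ m).restrict (hZi m))
    obtain ⟨z, hz⟩ := hc'.exists_hasEigenvector
    have e : ρ m z = c • (z : W) := congrArg Subtype.val hz.apply_eq_smul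
    refine ⟨c, Module.End.mem_eigenspace_iff.1 (hmin (y := Z ⊓ Module.End.eigenspace (ρ m) c)
      ⟨inf_le_left.trans hZ, fun h => hz.2 (Subtype.ext ?_), fun a y hy => ⟨hZi a y hy.1, ?_⟩⟩ inf_le_left hv).2⟩
    · exact (Submodule.eq_bot_iff _).1 h z ⟨z.2, Module.End.mem_eigenspace_iff.2 e⟩
    · refine Module.End.mem_eigenspace_iff.2 ?_
      rw [← Module.End.mul_apply, (hc m a).eq, Module.End.mul_apply, Module.End.mem_eigenspace_iff.1 hy.2, map_smul]
  choose c hc using h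
  refine ⟨v, hZ hv, hv0, MonoidHom.toHomUnits ⟨⟨c, smul_left_injective K hv0 ?_⟩,
    fun a b => smul_left_injective K hv0 ?_⟩, hc⟩
  · simp [← hc]
  · change c (a * b) • v = (c a * c b) • v
    rw [← hc, map_mul, Module.End.mul_apply, hc b, map_smul, hc a, smul_smul, mul_comm]

/-- The group-theoretic setting. -/
structure FN {A : Type*} [Group A] (F N H : Subgroup A) : Prop where
  nF : F.Normal
  nN : N.Normal
  nil : Group.IsNilpotent F
  le : N ≤ F
  sup : F ⊔ H = ⊤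
  fpf : ∀ h ∈ H, h ≠ 1 → ∀ n ∈ N, h * n = n * h → n = 1

variable {A : Type*} [Group A] [Finite A] {F N H : Subgroup A}

theorem df_closed {K : Type*} [Field K] [IsAlgClosed K] (h : FN F N H) (hN : (Nat.card N : K) ≠ 0) (d : ℕ) :
    ∀ {W : Type v} [AddCommGroup W] [Module K W] [FiniteDimensional K W] (ρ : Representation K A W),
      finrank K W = d → (∀ w, (∀ n ∈ N, ρ n w = w) → w = 0) →
      Nat.card H ∣ d ∧ Nat.card H * finrank K (Representation.invariants (ρ.comp H.subtype)) ≤ d := by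
  induction d using Nat.strong_induction_on with
  | _ d ih =>
  intro W _ _ _ ρ hd hW
  classical
  rcases subsingleton_or_nontrivial W with h0 | h0
  · rw [← hd, finrank_zero_of_subsingleton, finrank_zero_of_subsingleton]; simp
  have := h.nF
  have hρ : ∀ a b w, ρ a (ρ b w) = ρ (a * b) w := fun a b w => by rw [map_mul]; rfl
  obtain ⟨M, ⟨hMn, hMN, hM⟩, hmin⟩ := exists_minimal_of_wellFoundedLT
    (fun M : Subgroup A => M.Normal ∧ M ≤ N ∧ ¬ M ≤ ρ.ker) ⟨N, h.nN, le_rfl, fun e => by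
      obtain ⟨w, hw⟩ := exists_ne (0 : W)
      exact hw (hW w fun n hn => by rw [show ρ n = 1 from e hn]; rfl)⟩
  have hMF : ⁅M, F⁆ ≤ ρ.ker := by
    by_contra e
    have lt := PLocal.commutator_lt_of_isNilpotent (W := M) (A := F)
      (by rw [sup_eq_right.2 (hMN.trans h.le)]; exact h.nil) le_normalizer_of_normal fun e => hM (e ▸ bot_le)
    exact lt.not_ge (hmin ⟨inferInstance, lt.le.trans hMN, e⟩ lt.le)
  have hc : ∀ m ∈ M, ∀ f ∈ F, ρ (m * f) = ρ (f * m) := fun m hm f hf => by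
    have := congrArg (· * ρ (f * m)) (show ρ _ = 1 from hMF (commutator_mem_commutator hm hf))
    simpa only [← map_mul, one_mul, commutatorElement_def, mul_assoc, inv_mul_cancel_left, inv_mul_cancel,
      mul_one] using this
  have hMK : (Nat.card M : K) ≠ 0 := fun e => hN (by
    obtain ⟨c, hc⟩ := card_dvd_of_le hMN
    rw [hc, Nat.cast_mul, e, zero_mul])
  let _ := Fintype.ofFinite M
  obtain ⟨m₀, hm₀, hm₁⟩ := SetLike.not_le_iff_exists.1 hM
  obtain ⟨w₀, hw₀⟩ : ∃ w, ρ m₀ w ≠ w := by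
    by_contra! e; exact hm₁ (LinearMap.ext e)
  obtain ⟨v, hv, hv0, χ, hχ⟩ := exists_eigen (ρ.comp M.subtype)
    (fun a b => by
      show ρ a * ρ b = ρ b * ρ a
      rw [← map_mul, ← map_mul, hc _ a.2 _ (h.le (hMN b.2))])
    (Y := LinearMap.ker (∑ m : M, ρ m)) (fun e => hw₀ (sub_eq_zero.1 ((Submodule.eq_bot_iff _).1 e _ (by
      rw [LinearMap.mem_ker, map_sub, LinearMap.sum_apply, LinearMap.sum_apply, sub_eq_zero]
      simp only [hρ]
      exact Equiv.sum_comp (Equiv.mulRight (⟨m₀, hm₀⟩ : M)) fun m : M => ρ m w₀))))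
    fun a y hy => by
      rw [LinearMap.mem_ker, LinearMap.sum_apply] at hy ⊢
      have := congrArg (ρ a) hy
      rw [map_sum, map_zero] at this
      rw [← this]
      refine Finset.sum_congr rfl fun m _ => ?_
      show ρ m (ρ a y) = _
      rw [hρ, hρ, hc _ a.2 _ (h.le (hMN m.2))]
  have hχ1 : χ ≠ 1 := by
    rintro rfl
    rw [LinearMap.mem_ker, LinearMap.sum_apply, Finset.sum_congr rfl fun (m : M) _ => show ρ m v = _ from hχ m] at hv
    simp only [MonoidHom.one_apply, Units.val_one, one_smul, Finset.sum_const, Finset.card_univ,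
      ← Nat.cast_smul_eq_nsmul K, ← Nat.card_eq_fintype_card] at hv
    exact smul_ne_zero hMK hv0 hv
  let X : Submodule K W :=
    { carrier := {w | ∀ m : M, ρ m w = (χ m : K) • w}
      add_mem' := fun ha hb m => by rw [map_add, ha m, hb m, smul_add]
      zero_mem' := fun m => by simp
      smul_mem' := fun c w hw m => by rw [map_smul, hw m, smul_comm] }
  let e : W →ₗ[K] W := (Nat.card M : K)⁻¹ • ∑ m : M, ((χ m)⁻¹ : Kˣ) • ρ m
  have he : ∀ w, e w = (Nat.card M : K)⁻¹ • ∑ m : M, (((χ m)⁻¹ : Kˣ) : K) • ρ m w := fun w => by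
    simp [e, Units.smul_def]
  have e1 : ∀ w, e w ∈ X := fun w a => by
    rw [he, map_smul, map_sum, smul_comm, Finset.smul_sum (r := (χ a : K)), ← Equiv.sum_comp (Equiv.mulLeft a)
      (fun m : M => (χ a : K) • (((χ m)⁻¹ : Kˣ) : K) • ρ m w)]
    congr 1
    refine Finset.sum_congr rfl fun m _ => ?_
    rw [map_smul, hρ, Equiv.coe_mulLeft, smul_smul, map_mul χ, ← Units.val_mul, mul_inv_rev, mul_comm (χ m)⁻¹,
      mul_inv_cancel_left, coe_mul]
  have e2 : ∀ w ∈ X, e w = w := fun w hw => by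
    rw [he, Finset.sum_congr rfl fun m _ => by rw [hw m, smul_smul, Units.inv_mul, one_smul]]
    simp only [Finset.sum_const, Finset.card_univ, ← Nat.cast_smul_eq_nsmul K, ← Nat.card_eq_fintype_card, smul_smul,
      inv_mul_cancel₀ hMK, one_smul]
  have e3 : ∀ w ∈ X, ∀ g ∈ H, g ≠ 1 → e (ρ g w) = 0 := fun w hw g hg hg1 => by
    let c : M →* M := (MulAut.conjNormal g⁻¹).toMonoidHom
    have hcv : ∀ m : M, (c m : A) = g⁻¹ * m * g := fun m => by simp [c]
    let μ : M →* K := (Units.coeHom K).comp (χ⁻¹ * χ.comp c)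
    have hμ : μ ≠ 1 := fun e => hχ1 (by
      have hi : Function.Injective fun m : M => m⁻¹ * c m := fun a b hab => by
        have := congrArg Subtype.val hab
        simp only [coe_mul, coe_inv, hcv] at this
        have h1 := h.fpf g hg hg1 _ (hMN (b * a⁻¹).2) (by
          simp only [coe_mul, coe_inv]
          calc g * (b * (a : A)⁻¹) = g * b * ((a : A)⁻¹ * (g⁻¹ * a * g)) * g⁻¹ * (a : A)⁻¹ * g := by group
            _ = _ := by rw [this]; group)
        exact (mul_inv_eq_one.1 (Subtype.ext h1)).symm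
      ext m
      obtain ⟨a, rfl⟩ := (Finite.injective_iff_surjective.1 hi) m
      simpa [μ] using DFunLike.congr_fun e a)
    rw [he, Finset.sum_congr rfl fun m _ => show _ = μ m • ρ g w by
      rw [hρ, show (m : A) * g = g * c m by rw [hcv]; group, ← hρ, hw, map_smul, smul_smul]; simp [μ],
      ← Finset.sum_smul, sum_hom_units_eq_zero μ hμ, zero_smul, smul_zero]
  have e4 : ∀ f ∈ F, ∀ w, e (ρ f w) = ρ f (e w) := fun f hf w => by
    rw [he, he, map_smul, map_sum]
    congr 1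
    exact Finset.sum_congr rfl fun m _ => by rw [map_smul, hρ, hρ, hc _ m.2 _ hf]
  let _ := Fintype.ofFinite H
  let φ : W →ₗ[K] (H → X) := LinearMap.pi fun g : H => (e ∘ₗ ρ (g : A)⁻¹).codRestrict X fun w => e1 _
  have hφ : ∀ w (g : H), (φ w g : W) = e (ρ (g : A)⁻¹ w) := fun w g => rfl
  have hs : Function.Surjective φ := fun x => ⟨∑ g : H, ρ g (x g), funext fun g => Subtype.ext (by
    rw [hφ, map_sum, map_sum, Finset.sum_eq_single g (fun b _ hb => by
      rw [hρ]; exact e3 _ (x b).2 _ (g⁻¹ * b).2 fun e => hb (inv_mul_eq_one.1 (Subtype.ext e)).symm) (by simp),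
      hρ, inv_mul_cancel, map_one, Module.End.one_apply, e2 _ (x g).2])⟩
  have hU : ∀ g, LinearMap.ker φ ≤ (LinearMap.ker φ).comap (ρ g) := fun g w hw => by
    have hg : g ∈ ((F ⊔ H : Subgroup A) : Set A) := by rw [h.sup]; trivial
    rw [normal_mul] at hg
    obtain ⟨f, hf, a, ha, rfl⟩ := hg
    refine funext fun b => Subtype.ext ?_
    have := congrArg Subtype.val (congrFun (show φ w = 0 from hw) ((⟨a, ha⟩ : H)⁻¹ * b))
    rw [hφ] at this
    rw [hφ, hρ, show (b : A)⁻¹ * (f * a) = ((b : A)⁻¹ * f * b) * (a⁻¹ * b)⁻¹ by group, ← hρ,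
      e4 _ (h.nF.conj_mem' f hf b), show e (ρ (a⁻¹ * b)⁻¹ w) = 0 from this, map_zero]
    rfl
  have d1 := φ.finrank_range_add_finrank_ker
  rw [LinearMap.range_eq_top.2 hs, finrank_top, finrank_pi_fintype, Finset.sum_const, Finset.card_univ, smul_eq_mul,
    ← Nat.card_eq_fintype_card, hd] at d1
  have hX : 0 < finrank K X := finrank_pos_iff.2 (Submodule.nontrivial_iff_ne_bot.2 fun e =>
    hv0 ((Submodule.eq_bot_iff _).1 e v hχ))
  obtain ⟨i1, i2⟩ := ih (finrank K (LinearMap.ker φ)) (by have := Nat.mul_pos (Nat.card_pos (α := H)) hX; omega)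
    (ρ.subrepresentation _ hU) rfl fun w hw => Subtype.ext (hW _ fun n hn => congrArg Subtype.val (hw n hn))
  refine ⟨d1 ▸ dvd_add (dvd_mul_right _ _) i1, ?_⟩
  let ψ : Representation.invariants (ρ.comp H.subtype) →ₗ[K] X :=
    (e ∘ₗ Submodule.subtype _).codRestrict X fun w => e1 _
  have d2 := ψ.finrank_range_add_finrank_ker
  have d3 := Submodule.finrank_le (LinearMap.range ψ)
  have d4 : finrank K (LinearMap.ker ψ) ≤
      finrank K (Representation.invariants ((ρ.subrepresentation _ hU).comp H.subtype)) := by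
    refine LinearMap.finrank_le_finrank_of_injective (f := ⟨⟨fun w => ⟨⟨w.1.1, funext fun g => Subtype.ext ?_⟩,
      fun g => Subtype.ext (w.1.2 g)⟩, fun _ _ => rfl⟩, fun _ _ => rfl⟩) fun a b hab =>
        Subtype.ext (Subtype.ext (congrArg (fun x => x.1.1) hab))
    rw [hφ, show ρ (g : A)⁻¹ w.1.1 = w.1.1 from w.1.2 g⁻¹]
    exact congrArg Subtype.val (show ψ w.1 = 0 from w.2)
  nlinarith

theorem df {k : Type*} [Field k] (h : FN F N H) (hN : (Nat.card N : k) ≠ 0) {W : Type*} [AddCommGroup W] [Module k W]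
    [FiniteDimensional k W] (ρ : Representation k A W) (hW : ∀ w, (∀ n ∈ N, ρ n w = w) → w = 0) :
    Nat.card H ∣ finrank k W ∧
      Nat.card H * finrank k (Representation.invariants (ρ.comp H.subtype)) ≤ finrank k W := by
  let K := AlgebraicClosure k
  have hK : (Nat.card N : K) ≠ 0 := by rw [← map_natCast (algebraMap k K)]; exact (map_ne_zero _).2 hN
  let σ : Representation K A (TensorProduct k K W) := (Module.End.baseChangeHom k K W).toMonoidHom.comp ρ
  let _ := Fintype.ofFinite N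
  have h0 : ∑ n : N, ρ n = 0 := LinearMap.ext fun w => hW _ fun a ha => by
    rw [LinearMap.sum_apply, map_sum, ← Equiv.sum_comp (Equiv.mulLeft (⟨a, ha⟩ : N)) fun n : N => ρ n w]
    exact Finset.sum_congr rfl fun n _ => by simp
  obtain ⟨h1, h2⟩ := df_closed h hK _ σ Module.finrank_baseChange fun w hw => by
    have := congrArg (Module.End.baseChangeHom k K W · w) h0
    simp only [map_sum, map_zero, LinearMap.sum_apply, LinearMap.zero_apply] at this
    rw [Finset.sum_congr rfl fun (n : N) _ => show Module.End.baseChangeHom k K W (ρ n) w = w from hw n n.2,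
      Finset.sum_const, Finset.card_univ, ← Nat.cast_smul_eq_nsmul K, ← Nat.card_eq_fintype_card] at this
    exact (smul_eq_zero.1 this).resolve_left hK
  refine ⟨h1, le_trans (Nat.mul_le_mul_left _ ?_) h2⟩
  rw [← Module.finrank_baseChange (R := K)]
  refine LinearMap.finrank_le_finrank_of_injective
    (f := ((Representation.invariants (ρ.comp H.subtype)).subtype.baseChange K).codRestrict _ fun x g => ?_)
    fun a b hab => Module.Flat.lTensor_preserves_injective_linearMap (M := K) _ (Submodule.injective_subtype _)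
      (congrArg Subtype.val hab)
  show (ρ g).baseChange K _ = _
  rw [← LinearMap.comp_apply, ← LinearMap.baseChange_comp]
  congr 2
  exact LinearMap.ext fun w => w.2 g

section Gen

variable {k H U V : Type*} [Field k] [Group H] [Fintype H] [AddCommGroup U] [Module k U] [AddCommGroup V] [Module k V]

/-- The map from the free module on `U` given by `x`. -/
noncomputable def T (ρ : Representation k H V) (x : U →ₗ[k] V) : (H → U) →ₗ[k] V :=
  ∑ h : H, ρ h ∘ₗ x ∘ₗ LinearMap.proj h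

theorem T_apply (ρ : Representation k H V) (x : U →ₗ[k] V) (f : H → U) : T ρ x f = ∑ h, ρ h (x (f h)) := by
  simp [T]

theorem T_shift (ρ : Representation k H V) (x : U →ₗ[k] V) (f : H → U) (g : H) :
    ρ g (T ρ x f) = T ρ x fun h => f (g⁻¹ * h) := by
  rw [T_apply, T_apply, map_sum, ← Equiv.sum_comp (Equiv.mulLeft g) fun h => ρ h (x (f (g⁻¹ * h)))]
  simp

theorem T_single [DecidableEq H] (ρ : Representation k H V) (x : U →ₗ[k] V) (g : H) (u : U) :
    T ρ x (Pi.single g u) = ρ g (x u) := by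
  rw [T_apply, Finset.sum_eq_single g (fun b _ hb => by simp [hb]) (by simp), Pi.single_eq_same]

theorem exists_not_mem_range {I Y : Type*} [AddCommGroup I] [Module k I] [AddCommGroup Y] [Module k Y]
    [FiniteDimensional k I] (Ψ : I →ₗ[k] Y) (h : finrank k I ≤ finrank k Y) {a : I} (ha : a ≠ 0) (h0 : Ψ a = 0) :
    ∃ y, y ∉ LinearMap.range Ψ := by
  by_contra! e
  have d1 := Ψ.finrank_range_add_finrank_ker
  rw [Submodule.eq_top_iff'.2 e, finrank_top] at d1
  exact ha ((Submodule.eq_bot_iff _).1 (Submodule.finrank_eq_zero.1 (show finrank k (LinearMap.ker Ψ) = 0 by omega)) a h0)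

theorem exists_T_surjective [FiniteDimensional k U] [FiniteDimensional k V] (ρ : Representation k H V)
    (hd : ∀ (M : Submodule k V) (hM : ∀ g, M ≤ M.comap (ρ g)),
      finrank k (ρ.linHom (ρ.quotient M hM)).invariants ≤ finrank k U * finrank k (V ⧸ M)) :
    ∃ x : U →ₗ[k] V, Function.Surjective (T ρ x) := by
  classical
  obtain ⟨V', ⟨hV, x, hx⟩, hmin⟩ := exists_minimal_of_wellFoundedLT
    (fun V' : Submodule k V => (∀ g, V' ≤ V'.comap (ρ g)) ∧ ∃ x : U →ₗ[k] V, LinearMap.range (T ρ x) ⊔ V' = ⊤)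
    ⟨⊤, fun g => by simp, 0, by simp⟩
  refine ⟨x, LinearMap.range_eq_top.1 ?_⟩
  by_contra hne
  obtain ⟨M, ⟨hM, hM1, hM2⟩, hmax⟩ := exists_maximal_of_wellFoundedGT
    (fun M : Submodule k V => (∀ g, M ≤ M.comap (ρ g)) ∧ M ≠ ⊤ ∧ LinearMap.range (T ρ x) ≤ M)
    ⟨_, fun g => by rintro _ ⟨f, rfl⟩; exact ⟨_, (T_shift ρ x f g).symm⟩, hne, le_rfl⟩
  have hσ : ∀ g v, ρ.quotient M hM g (M.mkQ v) = M.mkQ (ρ g v) := fun g v => rfl
  replace hd := hd M hM
  generalize ρ.quotient M hM = σ at hd hσ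
  have dec : ∀ v, ∃ f, ∃ v' ∈ V', T ρ x f + v' = v := fun v => by
    obtain ⟨_, ⟨f, rfl⟩, v', hv, e⟩ := Submodule.mem_sup.1 (hx ▸ Submodule.mem_top : v ∈ _ ⊔ V')
    exact ⟨f, v', hv, e⟩
  have mi : ∀ ψ : V →ₗ[k] V ⧸ M, (∀ g v, ψ (ρ g v) = σ g (ψ v)) → ψ ∈ (ρ.linHom σ).invariants := fun ψ h g =>
    LinearMap.ext fun v => by
      rw [Representation.linHom_apply, LinearMap.comp_apply, LinearMap.comp_apply, ← h, ← Module.End.mul_apply,
        ← map_mul, mul_inv_cancel, map_one, Module.End.one_apply]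
  let Ψ : (ρ.linHom σ).invariants →ₗ[k] (U →ₗ[k] V ⧸ M) := LinearMap.lcomp k _ x ∘ₗ Submodule.subtype _
  obtain ⟨θ, hθ⟩ : ∃ θ, θ ∉ LinearMap.range Ψ :=
    exists_not_mem_range (I := (ρ.linHom σ).invariants) (Y := U →ₗ[k] V ⧸ M) Ψ (by rwa [finrank_linearMap])
      (a := ⟨M.mkQ, mi _ fun g v => (hσ g v).symm⟩) (fun e => hM1 (Submodule.eq_top_iff'.2 fun v =>
        (Submodule.Quotient.mk_eq_zero M).1 (DFunLike.congr_fun (congrArg Subtype.val e) v)))
      (LinearMap.ext fun u => (Submodule.Quotient.mk_eq_zero M).2 (hM2 ⟨Pi.single 1 u, by simp [T_single]⟩))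
  have hK : ∀ s, ∃ f, T ρ x f ∈ V' ∧ T σ θ f = s := by
    by_contra hc
    have h1 : ((V'.comap (T ρ x)).map (T σ θ)).comap M.mkQ ≤ M := hmax ⟨fun g => by
      rintro v ⟨f, hf, e⟩
      exact ⟨fun h => f (g⁻¹ * h), show T ρ x _ ∈ V' from T_shift ρ x f g ▸ hV g hf, by rw [← T_shift, e, hσ]⟩,
      fun e => hc fun s => by
        obtain ⟨v, rfl⟩ := M.mkQ_surjective s
        exact (e ▸ Submodule.mem_top : v ∈ ((V'.comap (T ρ x)).map (T σ θ)).comap M.mkQ),
      hM2.trans (Submodule.le_comap_mkQ _ _)⟩ (Submodule.le_comap_mkQ _ _)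
    have h2 : ∀ f, T ρ x f ∈ V' → T σ θ f = 0 := fun f hf => by
      obtain ⟨v, hv⟩ := M.mkQ_surjective (T σ θ f)
      rw [← hv]
      exact (Submodule.Quotient.mk_eq_zero M).2 (h1 ⟨f, hf, hv.symm⟩)
    obtain ⟨s, hs⟩ := (V'.mkQ ∘ₗ T ρ x).exists_rightInverse_of_surjective (LinearMap.range_eq_top.2 fun q => by
      obtain ⟨v, rfl⟩ := V'.mkQ_surjective q
      obtain ⟨f, v', hv, rfl⟩ := dec v
      exact ⟨f, by simp [(Submodule.Quotient.mk_eq_zero V').2 hv]⟩)
    have h3 : ∀ f, ∀ v' ∈ V', (T σ θ ∘ₗ s ∘ₗ V'.mkQ) (T ρ x f + v') = T σ θ f := fun f v' hv => by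
      rw [LinearMap.comp_apply, ← sub_eq_zero, ← map_sub]
      refine h2 _ ((Submodule.Quotient.mk_eq_zero V').1 ?_)
      have := DFunLike.congr_fun hs (V'.mkQ (T ρ x f + v'))
      rw [map_sub, Submodule.Quotient.mk_sub, sub_eq_zero]
      refine Eq.trans this ?_
      simp [(Submodule.Quotient.mk_eq_zero V').2 hv]
    refine hθ ⟨⟨T σ θ ∘ₗ s ∘ₗ V'.mkQ, mi _ fun g v => ?_⟩, LinearMap.ext fun u => ?_⟩
    · obtain ⟨f, v', hv, rfl⟩ := dec v
      rw [h3 f v' hv, map_add, T_shift, h3 _ _ (hV g hv), T_shift]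
    · have := h3 (Pi.single 1 u) 0 V'.zero_mem
      rw [T_single, T_single, map_one, map_one, add_zero] at this
      exact this
  obtain ⟨l, hl⟩ := Module.projective_lifting_property (M.mkQ ∘ₗ V'.subtype) θ fun q => by
    obtain ⟨v, rfl⟩ := M.mkQ_surjective q
    obtain ⟨f, v', hv, rfl⟩ := dec v
    exact ⟨⟨v', hv⟩, by simp [(Submodule.Quotient.mk_eq_zero M).2 (hM2 ⟨f, rfl⟩)]⟩
  have a1 : ∀ f, T ρ (x + V'.subtype ∘ₗ l) f = T ρ x f + T ρ (V'.subtype ∘ₗ l) f := fun f => by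
    simp [T_apply, Finset.sum_add_distrib]
  have a2 : ∀ f, T ρ (V'.subtype ∘ₗ l) f ∈ V' := fun f => by
    rw [T_apply]; exact V'.sum_mem fun h _ => hV h (l _).2
  have a3 : ∀ f, M.mkQ (T ρ (V'.subtype ∘ₗ l) f) = T σ θ f := fun f => by
    rw [T_apply, T_apply, map_sum, ← hl]
    exact Finset.sum_congr rfl fun h _ => (hσ _ _).symm
  have b1 : V' ≤ LinearMap.range (T ρ (x + V'.subtype ∘ₗ l)) ⊔ V' ⊓ M := fun v hv => by
    obtain ⟨f, hf, e⟩ := hK (M.mkQ v)
    rw [← add_sub_cancel (T ρ (x + V'.subtype ∘ₗ l) f) v]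
    refine Submodule.add_mem_sup ⟨f, rfl⟩ ⟨V'.sub_mem hv (a1 f ▸ V'.add_mem hf (a2 f)), ?_⟩
    refine (Submodule.Quotient.mk_eq_zero M).1 ?_
    rw [← Submodule.mkQ_apply, map_sub, a1, map_add, a3, e, Submodule.mkQ_apply,
      Submodule.mkQ_apply, (Submodule.Quotient.mk_eq_zero M).2 (hM2 ⟨f, rfl⟩), zero_add, sub_self]
  have b2 := hmin (y := V' ⊓ M) ⟨fun g v hv => ⟨hV g hv.1, hM g hv.2⟩, x + V'.subtype ∘ₗ l, by
    rw [eq_top_iff, ← hx]
    refine sup_le ?_ b1
    rintro _ ⟨f, rfl⟩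
    rw [← add_sub_cancel_right (T ρ x f) (T ρ (V'.subtype ∘ₗ l) f), ← a1]
    exact Submodule.sub_mem _ (Submodule.mem_sup_left ⟨f, rfl⟩) (b1 (a2 f))⟩ inf_le_left
  exact hM1 (top_le_iff.1 (hx ▸ sup_le hM2 (b2.trans inf_le_right)))

end Gen

end Cfsg.Agent.Gen2.FrobFree
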