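import Cfsg.Agent.FG.SymQS

/-! Overgroups of `A₅` in `A₈` (`NSL.perm8`). -/

set_option autoImplicit false

namespace Cfsg.Agent.Gen2.NSL

open Subgroup Equiv Equiv.Perm Finset Cfsg.Agent.FG.HS

theorem cyc_fix {α : Type*} [Fintype α] [DecidableEq α] {y x : Perm α} (hy : y.IsCycle) (hc : Commute x y) {n : ℕ}
    (hn : x ^ n = 1) (hcop : (orderOf y).Coprime n) {a : α} (ha : y a ≠ a) : x a = a := by
  obtain ⟨k, hk⟩ := hy.exists_pow_eq ha (y := x a) fun e => ha (x.injective (by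
    rw [← Perm.mul_apply, hc.eq, Perm.mul_apply, e]))
  have h1 : ∀ j : ℕ, (x ^ j) a = (y ^ (k * j)) a := fun j => by
    induction j with
    | zero => simp
    | succ j ih => rw [pow_succ', Perm.mul_apply, ih, ← Perm.mul_apply, (hc.pow_right _).eq, Perm.mul_apply, ← hk,
        ← Perm.mul_apply, ← pow_add, mul_add, mul_one]
  have h2 := (hy.pow_eq_one_iff' ha).2 ((h1 n).symm.trans (by rw [hn]; rfl))
  rw [← hk, orderOf_dvd_iff_pow_eq_one.1 (hcop.dvd_of_dvd_mul_right (orderOf_dvd_of_pow_eq_one h2))]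
  rfl

theorem perm8 {H L S : Subgroup (Perm (Fin 8))} (hH : H ≤ alternatingGroup _) (hLH : L ≤ H) (h60 : Nat.card L = 60)
    (hgen : ∀ K : Subgroup (Perm (Fin 8)), (∀ x ∈ L, x ^ 2 = 1 → x ∈ K) → L ≤ K) {c : Perm (Fin 8)} (hc : orderOf c = 3)
    (hcL : ∀ x ∈ L, Commute x c) (hS : IsPGroup 2 S) (hSN : S ≤ normalizer (L : Set (Perm (Fin 8)))) (hSH : S ≤ H)
    (hodd : ¬ 2 ∣ S.relIndex H) :
    H ≤ normalizer (L : Set (Perm (Fin 8))) ∨ Nonempty (H ≃* alternatingGroup (Fin 7)) := by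
  have : Fact (Nat.Prime 5) := ⟨by norm_num⟩
  obtain ⟨f, hf⟩ := exists_prime_orderOf_dvd_card' (G := L) 5 (by rw [h60]; norm_num)
  rw [← orderOf_coe] at hf
  have hfc : (f : Perm (Fin 8)).IsCycle := isCycle_of_prime_order' (by rw [hf]; norm_num) (by rw [hf]; simp)
  obtain ⟨Δ, hΔ⟩ : ∃ Δ, Δ = (f : Perm (Fin 8)).support := ⟨_, rfl⟩
  have h5 : Δ.card = 5 := by rw [hΔ, ← hfc.orderOf, hf]
  have hsc : c.support ⊆ Δᶜ := fun a ha => mem_compl.2 fun h => mem_support.1 ha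
    (cyc_fix hfc (hcL _ f.2).symm (hc ▸ pow_orderOf_eq_one c) (by rw [hf]; norm_num) (mem_support.1 (hΔ ▸ h)))
  have h3 : (Δᶜ).card = 3 := by rw [card_compl, h5]; rfl
  have hcc : c.IsCycle := isCycle_of_prime_order (by rw [hc]; norm_num) (by have := card_le_card hsc; omega)
  have hsc' : c.support = Δᶜ := eq_of_subset_of_card_le hsc (by rw [h3, ← hcc.orderOf, hc])
  have hL : L = AO Δ := by
    refine eq_of_le_of_card_ge (fun x hx => mem_AO.2 ⟨hH (hLH hx), fun a ha => by_contra fun h => ha ?_⟩) ?_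
    · exact hgen (MulAction.stabilizer _ a) (fun y hy h2 => cyc_fix hcc (hcL y hy) h2 (by rw [hc]; norm_num)
        (mem_support.1 (hsc' ▸ mem_compl.2 h))) hx
    · rw [h60, Nat.card_congr (AOequiv Δ).toEquiv, h5, nat_card_alternatingGroup]; simp [Nat.factorial]
  have hT : ∀ a ∈ Δ, ∀ b ∈ Δ, ∀ d ∈ Δ, a ≠ b → a ≠ d → b ≠ d → T L a b d := fun a ha b hb d hd h1 h2 h3 =>
    ⟨h1, h2, h3, hL ▸ mem_AO.2 ⟨by simp [h1, h3], fun u hu => by
      by_contra k
      have k1 : ∀ v ∈ Δ, u ≠ v := fun v hv e => k (e ▸ hv)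
      exact hu (by rw [Perm.mul_apply, swap_apply_of_ne_of_ne (k1 b hb) (k1 d hd), swap_apply_of_ne_of_ne (k1 a ha) (k1 b hb)])⟩⟩
  have third : ∀ a b, ∃ d ∈ Δ, a ≠ d ∧ b ≠ d := fun a b => by
    by_contra k
    push Not at k
    have : Δ ⊆ {a, b} := fun d hd => by
      by_cases e : a = d
      · simp [e]
      · simp [k d hd e]
    have := (card_le_card this).trans card_le_two
    omega
  let r : Fin 8 → Fin 8 → Prop := fun a b => a = b ∨ ∃ c, T H a b c
  have hr : Equivalence r := ⟨fun _ => Or.inl rfl, fun h => h.imp Eq.symm fun ⟨c, h⟩ => ⟨c, h.rev.rot⟩, by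
    rintro x y z (rfl | ⟨u, h⟩) h'
    · exact h'
    · rcases h' with rfl | ⟨v, h'⟩
      · exact Or.inr ⟨u, h⟩
      · by_cases e : x = z
        · exact Or.inl e
        · exact Or.inr ⟨y, (h.rev.rot.l2 h' e).rot⟩⟩
  have key : ∀ g ∈ H, ∀ a b, r a b → r (g a) (g b) := fun g hg a b h => h.imp (congrArg g) fun ⟨c, h⟩ => ⟨_, h.conj hg⟩
  have hΔr : ∀ a ∈ Δ, ∀ b ∈ Δ, r a b := fun a ha b hb => by
    by_cases e : a = b
    · exact Or.inl e
    obtain ⟨d, hd, h1, h2⟩ := third a b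
    obtain ⟨k1, k2, k3, k4⟩ := hT a ha b hb d hd e h1 h2
    exact Or.inr ⟨d, k1, k2, k3, hLH k4⟩
  -- a point of `Δ` fixed by `S`
  have hSΔ : ∀ s ∈ S, ∀ a ∈ Δ, s a ∈ Δ := fun s hs a ha => by
    obtain ⟨b, hb, h1, -⟩ := third a a
    obtain ⟨d, hd, h2, h3⟩ := third a b
    have h4 := (mem_normalizer_iff.1 (hSN hs) _).1 (hT a ha b hb d hd h1 h2 h3).2.2.2
    rw [hL] at h4
    refine (mem_AO.1 h4).2 _ fun e => h1 ?_
    simpa [swap_apply_def, h1, h2] using e.symm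
  obtain ⟨a, ha, hSa⟩ : ∃ a ∈ Δ, ∀ s ∈ S, s a = a := by
    let D : SubMulAction S (Fin 8) := ⟨Δ, fun s a ha => hSΔ s s.2 a ha⟩
    obtain ⟨a, h⟩ := hS.nonempty_fixed_point_of_prime_not_dvd_card D (by
      rw [show Nat.card D = Δ.card from Nat.card_eq_card_toFinset (Δ : Set (Fin 8)) |>.trans (by simp), h5]; norm_num)
    exact ⟨a.1, a.2, fun s hs => congrArg Subtype.val (h ⟨s, hs⟩)⟩
  have hle : AO (cls r a) ≤ H := fun x hx => alt_le (Δ := cls r a) (fun u hu v hv w hw h1 h2 h3 => by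
    obtain ⟨x, hx⟩ := (hr.trans (hr.symm (mem_cls.1 hu)) (mem_cls.1 hv)).resolve_left h1
    obtain ⟨y, hy⟩ := (hr.trans (hr.symm (mem_cls.1 hu)) (mem_cls.1 hw)).resolve_left h2
    exact hx.l2 hy h3) (mem_AO.1 hx).1 (mem_AO.1 hx).2
  have hsub : Δ ⊆ cls r a := fun b hb => mem_cls.2 (hΔr a ha b hb)
  have hinv : ∀ g ∈ H, ∀ b ∈ cls r a, g b ∈ cls r a := fun g hg b hb => by
    obtain ⟨x, hx, hgx⟩ : ∃ x ∈ Δ, g x ∈ Δ := by
      by_contra k
      push Not at k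
      have := card_le_card_of_injOn g (s := Δ) (t := Δᶜ) (fun x hx => mem_compl.2 (k x hx)) g.injective.injOn
      omega
    exact mem_cls.2 (hr.trans (hΔr a ha _ hgx) (key g hg _ _ (hr.trans (hΔr x hx a ha) (mem_cls.1 hb))))
  have horb : MulAction.orbit H a = cls r a := by
    ext b
    refine ⟨?_, fun hb => ?_⟩
    · rintro ⟨g, rfl⟩; exact hinv g g.2 a (hsub ha)
    · rcases mem_cls.1 hb with e | ⟨d, k1, k2, k3, k4⟩
      · exact e ▸ MulAction.mem_orbit_self a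
      · exact ⟨⟨_, k4⟩, by simp [Subgroup.smul_def, swap_apply_def, k1, k2]⟩
  have hodd' : ¬ 2 ∣ (cls r a).card := fun h2 => hodd (by
    have h1 : S.subgroupOf H ≤ MulAction.stabilizer H a := fun s hs => hSa s hs
    refine h2.trans (dvd_trans (dvd_of_eq ?_) (index_dvd_of_le h1))
    rw [MulAction.index_stabilizer, horb, Set.ncard_coe_finset])
  have hc5 := card_le_card hsub
  have hc8 : (cls r a).card ≤ 8 := (card_le_univ _).trans (by simp)
  rcases (by omega : (cls r a).card = 5 ∨ (cls r a).card = 7) with e | e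
  · have e1 : Δ = cls r a := eq_of_subset_of_card_le hsub (by omega)
    refine Or.inl fun g hg => mem_normalizer_fintype fun x hx => ?_
    rw [SetLike.mem_coe, hL, e1] at hx ⊢
    refine mem_AO.2 ⟨(inferInstance : (alternatingGroup _).Normal).conj_mem _ (mem_AO.1 hx).1 g, fun u hu => ?_⟩
    have h1 := (mem_AO.1 hx).2 (g⁻¹ u) fun e => hu (by rw [Perm.mul_apply, Perm.mul_apply, e]; simp)
    simpa using hinv g hg _ h1
  · have e1 : H = AO (cls r a) := le_antisymm (fun g hg => mem_AO.2 ⟨hH hg, fun u hu => by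
      by_contra k
      have k2 : g u ∉ cls r a := fun k2 => k (by simpa using hinv _ (inv_mem hg) _ k2)
      have k3 : ((cls r a)ᶜ).card = 1 := by rw [card_compl, e]; rfl
      exact hu (card_le_one.1 k3.le _ (mem_compl.2 k2) _ (mem_compl.2 k))⟩) hle
    have := AOequiv (cls r a)
    rw [e, ← e1] at this
    exact Or.inr ⟨this⟩

end Cfsg.Agent.Gen2.NSL
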