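import Cfsg.Agent.Classical.SL2Unip
import Cfsg.Agent.Gen2.NSL2
import Cfsg.Agent.Gen.GL42

/-! A finite group `G` acting faithfully on the natural module of a subgroup `L = SL₂(q)` whose normaliser has index prime
to `p` (`NSL.Nat2`): `L` is normal unless `q = 4` (`Nat2.normal`). -/

set_option autoImplicit false
set_option linter.unusedSectionVars false
set_option linter.unusedVariables false

namespace Cfsg.Agent.Gen2.NSL

open Subgroup Matrix Cfsg.Agent.Classical
open scoped MatrixGroups Pointwise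

variable {F : Type} [Field F] {G : Type*} [Group G] [DistribMulAction G (Fin 2 → F)]

/-- The setting. -/
structure Nat2 (p : ℕ) (ι : SL(2, F) →* G) : Prop where
  faith : ∀ g : G, (∀ w : Fin 2 → F, g • w = w) → g = 1
  act : ∀ (m : SL(2, F)) (w : Fin 2 → F), ι m • w = m.1 *ᵥ w
  idx : ¬ p ∣ (normalizer (ι.range : Set G)).index

/-- The line `F e₀`. -/
def l0 (F : Type) [Field F] : AddSubgroup (Fin 2 → F) where
  carrier := {w | w 1 = 0}
  add_mem' := fun {a b} ha hb => by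
    have ha : a 1 = 0 := ha
    have hb : b 1 = 0 := hb
    show a 1 + b 1 = 0
    rw [ha, hb, add_zero]
  zero_mem' := rfl
  neg_mem' := fun {a} ha => by
    have ha : a 1 = 0 := ha
    show -a 1 = 0
    rw [ha, neg_zero]

theorem mem_l0 {w : Fin 2 → F} : w ∈ l0 F ↔ w 1 = 0 := Iff.rfl

/-- The elements acting trivially on `U` and on the quotient. -/
def TU (G : Type*) [Group G] [DistribMulAction G (Fin 2 → F)] (U : AddSubgroup (Fin 2 → F)) : Subgroup G where
  carrier := {x | (∀ u ∈ U, x • u = u) ∧ ∀ w, x • w - w ∈ U}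
  mul_mem' := fun {a b} ha hb => ⟨fun u hu => by rw [mul_smul, hb.1 u hu, ha.1 u hu], fun w => by
    have := add_mem (ha.2 (b • w)) (hb.2 w)
    rwa [sub_add_sub_cancel, ← mul_smul] at this⟩
  one_mem' := ⟨fun u _ => one_smul _ u, fun w => by rw [one_smul, sub_self]; exact zero_mem _⟩
  inv_mem' := fun {a} ha => ⟨fun u hu => by rw [inv_smul_eq_iff, ha.1 u hu], fun w => by
    have := neg_mem (ha.2 (a⁻¹ • w))
    rwa [smul_inv_smul, neg_sub] at this⟩

theorem mem_TU {U : AddSubgroup (Fin 2 → F)} {x : G} : x ∈ TU G U ↔ (∀ u ∈ U, x • u = u) ∧ ∀ w, x • w - w ∈ U := Iff.rfl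

theorem conj_mem_TU {U : AddSubgroup (Fin 2 → F)} {x : G} (g : G) (hx : x ∈ TU G U) : g * x * g⁻¹ ∈ TU G (g • U) := by
  refine ⟨fun u hu => ?_, fun w => ?_⟩
  · rw [AddSubgroup.mem_pointwise_smul_iff_inv_smul_mem] at hu
    rw [mul_smul, mul_smul, hx.1 _ hu, smul_inv_smul]
  · rw [AddSubgroup.mem_pointwise_smul_iff_inv_smul_mem, smul_sub, mul_smul, mul_smul, inv_smul_smul]
    exact hx.2 _

theorem TU_smul (g : G) (U : AddSubgroup (Fin 2 → F)) : TU G (g • U) = (TU G U).map (MulAut.conj g).toMonoidHom := by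
  ext x
  refine ⟨fun hx => ⟨g⁻¹ * x * g⁻¹⁻¹, ?_, by simp [mul_assoc]⟩, ?_⟩
  · have := conj_mem_TU g⁻¹ hx
    rwa [inv_smul_smul] at this
  · rintro ⟨y, hy, rfl⟩
    exact conj_mem_TU g hy

theorem card_TU_smul (g : G) (U : AddSubgroup (Fin 2 → F)) : Nat.card (TU G (g • U)) = Nat.card (TU G U) := by
  rw [TU_smul, card_map_of_injective (MulAut.conj g).injective]

theorem TU_pow {U : AddSubgroup (Fin 2 → F)} {x : G} (hx : x ∈ TU G U) (w : Fin 2 → F) (n : ℕ) :
    x ^ n • w = w + n • (x • w - w) := by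
  induction n with
  | zero => simp
  | succ n ih => rw [pow_succ', mul_smul, ih, smul_add, smul_comm x n, hx.1 _ (hx.2 w), succ_nsmul]; abel

theorem card_l0 [Finite F] : Nat.card (l0 F) = Nat.card F :=
  Nat.card_congr ⟨fun w => w.1 0, fun c => ⟨![c, 0], rfl⟩, fun w => Subtype.ext (by
    ext i; fin_cases i
    · rfl
    · exact (mem_l0.1 w.2).symm), fun c => rfl⟩

theorem card_smul (g : G) (U : AddSubgroup (Fin 2 → F)) : Nat.card (g • U : AddSubgroup _) = Nat.card U :=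
  Nat.card_congr ⟨fun w => ⟨g⁻¹ • w.1, AddSubgroup.mem_pointwise_smul_iff_inv_smul_mem.1 w.2⟩,
    fun w => ⟨g • w.1, AddSubgroup.smul_mem_pointwise_smul _ _ _ w.2⟩, fun w => Subtype.ext (smul_inv_smul _ _),
    fun w => Subtype.ext (inv_smul_smul _ _)⟩

theorem mv0 (m : Matrix (Fin 2) (Fin 2) F) (w : Fin 2 → F) : (m *ᵥ w) 0 = m 0 0 * w 0 + m 0 1 * w 1 := by
  simp [mulVec, dotProduct, Fin.sum_univ_two]

theorem mv1 (m : Matrix (Fin 2) (Fin 2) F) (w : Fin 2 → F) : (m *ᵥ w) 1 = m 1 0 * w 0 + m 1 1 * w 1 := by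
  simp [mulVec, dotProduct, Fin.sum_univ_two]

theorem vext {v w : Fin 2 → F} (h0 : v 0 = w 0) (h1 : v 1 = w 1) : v = w := by
  ext i; fin_cases i
  · exact h0
  · exact h1

theorem exists_sl_e0 {w : Fin 2 → F} (hw : w ≠ 0) : ∃ m : SL(2, F), m.1 *ᵥ w = ![1, 0] := by
  by_cases h : w 0 = 0
  · have h1 : w 1 ≠ 0 := fun e => hw (vext h e)
    refine ⟨⟨!![0, (w 1)⁻¹; -w 1, 0], by simp [det_fin_two, h1]⟩, vext ?_ ?_⟩
    · simp [mv0, h1]
    · simp [mv1, h]
  · refine ⟨⟨!![(w 0)⁻¹, 0; -w 1, w 0], by simp [det_fin_two, h]⟩, vext ?_ ?_⟩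
    · simp [mv0, h]
    · simp [mv1, mul_comm]

variable {p : ℕ} {ι : SL(2, F) →* G}

theorem Nat2.smul_comm' (h : Nat2 p ι) (m : SL(2, F)) (c : F) (w : Fin 2 → F) : ι m • c • w = c • ι m • w := by
  rw [h.act, h.act, mulVec_smul]

theorem norm_conj {x : G} (hx : x ∈ normalizer (ι.range : Set G)) (m : SL(2, F)) : ∃ m', ι m' = x * ι m * x⁻¹ :=
  (mem_normalizer_iff.1 hx _).1 ⟨m, rfl⟩

/-- The normaliser of `L` permutes the lines. -/
theorem Nat2.line (h : Nat2 p ι) {x : G} (hx : x ∈ normalizer (ι.range : Set G)) {w : Fin 2 → F} (hw : w ≠ 0) (c : F) :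
    ∃ d : F, x • c • w = d • x • w := by
  let m : SL(2, F) := ⟨!![1 - w 0 * w 1, w 0 * w 0; -(w 1 * w 1), 1 + w 0 * w 1], by simp [det_fin_two]; ring⟩
  have hm : ∀ c : F, ι m • c • w = c • w := fun c => by
    rw [h.smul_comm', h.act]
    congr 1
    refine vext ?_ ?_
    · simp [mv0, m]; ring
    · simp [mv1, m]; ring
  obtain ⟨m', e⟩ := norm_conj hx m
  have h1 : ∀ c : F, m'.1 *ᵥ (x • c • w) = x • c • w := fun c => by
    rw [← h.act, e, mul_smul, mul_smul, inv_smul_smul, hm]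
  have h2 := h1 1
  rw [one_smul] at h2
  have h3 := h1 c
  have hu : x • w ≠ 0 := fun e => hw (by rw [← inv_smul_smul x w, e, smul_zero])
  generalize x • w = u at h2 hu
  generalize x • c • w = v at h3
  by_contra hn
  have hd : u 0 * v 1 - u 1 * v 0 ≠ 0 := fun e0 => hn (by
    by_cases k : u 0 = 0
    · have k1 : u 1 ≠ 0 := fun e => hu (vext k e)
      refine ⟨v 1 / u 1, vext ?_ ?_⟩
      · have : u 1 * v 0 = 0 := by rw [k] at e0; linear_combination -e0
        simp [k, (mul_eq_zero.1 this).resolve_left k1]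
      · simp [k1]
    · refine ⟨v 0 / u 0, vext ?_ ?_⟩
      · simp [k]
      · simp only [Pi.smul_apply, smul_eq_mul]; field_simp; linear_combination e0)
  have a0 := congrFun h2 0
  have a1 := congrFun h2 1
  have b0 := congrFun h3 0
  have b1 := congrFun h3 1
  rw [mv0] at a0 b0
  rw [mv1] at a1 b1
  have hm1 : m' = 1 := by
    ext i j
    fin_cases i <;> fin_cases j <;> refine mul_right_cancel₀ hd ?_
    · simp; linear_combination v 1 * a0 - u 1 * b0
    · show m'.1 0 1 * _ = 0 * _; linear_combination u 0 * b0 - v 0 * a0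
    · show m'.1 1 0 * _ = 0 * _; linear_combination v 1 * a1 - u 1 * b1
    · simp; linear_combination u 0 * b1 - v 0 * a1
  have : ι m = 1 := by
    rw [hm1, map_one] at e
    have := congrArg (fun y => x⁻¹ * y * x) e
    simpa [mul_assoc] using this.symm
  have k0 := congrFun (h.act m ![0, 1]) 0
  have k1 := congrFun (h.act m ![1, 0]) 1
  rw [this, one_smul] at k0 k1
  simp [mv0, mv1, m] at k0 k1
  exact hw (vext k0 k1)

theorem split (w : Fin 2 → F) {u : Fin 2 → F} (hu : u 1 ≠ 0) : ∃ c : F, w - c • u ∈ l0 F :=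
  ⟨w 1 / u 1, by simp [mem_l0, hu]⟩

theorem Nat2.fix3 (h : Nat2 p ι) {z : G} (hz : z ∈ normalizer (ι.range : Set G)) (h0 : ∀ w ∈ l0 F, z • w = w)
    {u : Fin 2 → F} (hu : u 1 ≠ 0) (hzu : z • u = u) : z = 1 := by
  have hu0 : u ≠ 0 := fun e => hu (by rw [e]; rfl)
  have he : (![1, 0] : Fin 2 → F) ∈ l0 F := rfl
  have key : ∀ c : F, z • c • u = c • u := fun c => by
    obtain ⟨d, hd⟩ := h.line hz hu0 c
    obtain ⟨d', hd'⟩ := h.line hz (w := u + ![1, 0]) (fun e => hu (by simpa using congrFun e 1)) c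
    rw [smul_add, smul_add, smul_add, hd, hzu, h0 _ he, h0 (c • ![1, 0]) (by simp [mem_l0])] at hd'
    have k0 := congrFun hd' 0
    have k1 := congrFun hd' 1
    simp only [Pi.add_apply, Pi.smul_apply, smul_eq_mul, cons_val_zero, cons_val_one, mul_zero, add_zero, mul_one] at k0 k1
    have k2 := mul_right_cancel₀ hu k1
    rw [hd, hzu, k2, show d' = c by rw [k2] at k0; linear_combination -k0]
  refine h.faith z fun w => ?_
  obtain ⟨c, hc⟩ := split w hu
  have := h0 _ hc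
  rw [smul_sub, key] at this
  exact sub_left_injective this

theorem Nat2.u_mem (h : Nat2 p ι) (a : F) : ι (uSL a) ∈ TU G (l0 F) :=
  ⟨fun u hu => by rw [h.act]; exact vext (by simp [mv0, mem_l0.1 hu]) (by simp [mv1]), fun w => by
    rw [h.act]; simp [mem_l0]⟩

theorem Nat2.eq_u (h : Nat2 p ι) {x : G} (hx : x ∈ normalizer (ι.range : Set G)) (hT : x ∈ TU G (l0 F)) :
    ∃ a, x = ι (uSL a) := by
  refine ⟨(x • (![0, 1] : Fin 2 → F)) 0, ?_⟩
  have hy := mul_mem (inv_mem (h.u_mem ((x • (![0, 1] : Fin 2 → F)) 0))) hT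
  refine (inv_mul_eq_one.1 (h.fix3 (mul_mem (inv_mem (le_normalizer ⟨_, rfl⟩)) hx) hy.1 (u := ![0, 1]) (by simp) ?_)).symm
  rw [mul_smul, inv_smul_eq_iff, h.act]
  have := mem_l0.1 (hT.2 ![0, 1])
  refine vext (by simp [mv0]) ?_
  simp [mv1] at this ⊢
  exact sub_eq_zero.1 this

/-- Elements of the normaliser fixing `e₀`. -/
def S0 (ι : SL(2, F) →* G) : Subgroup G :=
  normalizer (ι.range : Set G) ⊓ MulAction.stabilizer G (![1, 0] : Fin 2 → F)

theorem Nat2.sigma (h : Nat2 p ι) {x : G} (hx : x ∈ S0 ι) :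
    ∃ σ : F →+* F, ∀ c : F, x • c • (![1, 0] : Fin 2 → F) = σ c • (![1, 0] : Fin 2 → F) := by
  have hx2 : x • (![1, 0] : Fin 2 → F) = ![1, 0] := hx.2
  have h1 : ∀ c : F, x • c • (![1, 0] : Fin 2 → F) = (x • c • (![1, 0] : Fin 2 → F)) 0 • (![1, 0] : Fin 2 → F) := fun c => by
    obtain ⟨d, hd⟩ := h.line hx.1 (w := ![1, 0]) (by simp) c
    rw [hd, hx2]; simp
  refine ⟨⟨⟨⟨fun c => (x • c • (![1, 0] : Fin 2 → F)) 0, by simp [hx2]⟩, fun c c' => ?_⟩, by simp,
    fun c c' => by simp only [add_smul, smul_add, Pi.add_apply]⟩, h1⟩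
  by_cases hc : c = 0
  · simp [hc]
  obtain ⟨m, e⟩ := norm_conj hx.1 (dSL (Units.mk0 c hc))
  have k : ∀ c' : F, ι (dSL (Units.mk0 c hc)) • c' • (![1, 0] : Fin 2 → F) = (c * c') • (![1, 0] : Fin 2 → F) := fun c' => by
    rw [h.act]; exact vext (by simp [mv0]) (by simp [mv1])
  have k2 : ∀ c' : F, x • (c * c') • (![1, 0] : Fin 2 → F) = ι m • x • c' • (![1, 0] : Fin 2 → F) := fun c' => by
    rw [e, mul_smul _ x⁻¹, inv_smul_smul, mul_smul x, k]
  have k3 := k2 1
  rw [mul_one, one_smul, hx2] at k3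
  show (x • (c * c') • (![1, 0] : Fin 2 → F)) 0 = _
  rw [k2, h1 c', h.smul_comm', ← k3, Pi.smul_apply, smul_eq_mul, mul_comm]

theorem sigma_sq {σ : F →+* F} (h : ∀ c, σ (σ c - c) = σ c - c) (c : F) : σ (σ c) = c := by
  have h1 := h c
  have h2 := h (c * c)
  simp only [map_sub, map_mul] at h1 h2
  have h3 : σ (σ c) = 2 * σ c - c := by linear_combination h1
  rw [h3] at h2 ⊢
  have h4 : (2 * (σ c - c)) * (σ c - c) = 0 := by linear_combination h2
  rcases mul_eq_zero.1 h4 with e | e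
  · linear_combination e
  · linear_combination 2 * e

variable [Fintype F] [Fact p.Prime] [CharP F p] [Finite G]

theorem Nat2.card_le_two (h : Nat2 p ι) {U : AddSubgroup (Fin 2 → F)} {u : Fin 2 → F} (hu : u ∈ U) (hu1 : u 1 ≠ 0)
    {A : Subgroup G} (hA : A ≤ TU G U) (hA' : A ≤ S0 ι) : Nat.card A ≤ 2 := by
  classical
  let _ := ZMod.algebra F p
  choose σ hσ using fun x : A => h.sigma (hA' x.2)
  have he : ∀ c d : F, c • (![1, 0] : Fin 2 → F) = d • (![1, 0] : Fin 2 → F) → c = d := fun c d e => by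
    simpa using congrFun e 0
  have hsq : ∀ x c, σ x (σ x c) = c := fun x => sigma_sq fun c => he _ _ (by
    have := (hA x.2).1 _ ((hA x.2).2 (c • ![1, 0]))
    rwa [hσ, ← sub_smul, hσ] at this)
  let f : A → {τ : Gal(F/ZMod p) // τ ^ 2 = 1} := fun x =>
    ⟨AlgEquiv.ofRingEquiv (f := RingEquiv.ofRingHom (σ x) (σ x) (RingHom.ext (hsq x)) (RingHom.ext (hsq x))) fun a =>
      DFunLike.congr_fun (RingHom.ext_zmod ((σ x).comp (algebraMap (ZMod p) F)) (algebraMap (ZMod p) F)) a,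
      AlgEquiv.ext fun c => hsq x c⟩
  have hf : Function.Injective f := fun x y e => by
    have e1 : ∀ c, σ x c = σ y c := fun c => DFunLike.congr_fun (congrArg Subtype.val e) c
    have hz := mul_mem (inv_mem y.2) x.2
    refine (Subtype.ext (inv_mul_eq_one.1 (h.fix3 (hA' hz).1 (fun w hw => ?_) hu1 ((hA hz).1 u hu)))).symm
    rw [show w = w 0 • (![1, 0] : Fin 2 → F) from vext (by simp) (by simp [mem_l0.1 hw]), mul_smul, hσ x, e1, ← hσ y,
      inv_smul_smul]
  refine (Nat.card_le_card_of_injective f hf).trans ?_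
  rw [Nat.card_eq_fintype_card, Fintype.card_subtype]
  exact IsCyclic.card_pow_eq_one_le two_pos

theorem Nat2.conj_S0 (h : Nat2 p ι) {R : Subgroup G} (hR : IsPGroup p R) : ∃ g : G, ∀ r ∈ R, g * r * g⁻¹ ∈ S0 ι := by
  obtain ⟨Q⟩ := (inferInstance : Nonempty (Sylow p (normalizer (ι.range : Set G))))
  have hQ : ¬ p ∣ (Q.1.map (normalizer (ι.range : Set G)).subtype).index := by
    rw [index_map_subtype]
    exact (Fact.out : p.Prime).prime.not_dvd_mul Q.not_dvd_index h.idx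
  let P : Sylow p G := (Q.isPGroup'.map _).toSylow hQ
  obtain ⟨P', hP'⟩ := hR.exists_le_sylow
  obtain ⟨g1, hg1⟩ := MulAction.exists_smul_eq G P' P
  have h1 : ∀ r ∈ R, g1 * r * g1⁻¹ ∈ normalizer (ι.range : Set G) := fun r hr => by
    have : g1 * r * g1⁻¹ ∈ (g1 • P').1 := ⟨r, hP' hr, rfl⟩
    rw [hg1] at this
    exact map_subtype_le _ this
  obtain ⟨w, hw, hw0⟩ := hR.exists_fixed_point_of_prime_dvd_card_of_fixed_point (Fin 2 → F) (a := 0) (by
    obtain ⟨n, -, hn⟩ := FiniteField.card F p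
    rw [Nat.card_fun, Nat.card_eq_fintype_card, hn]
    exact (dvd_pow_self p n.ne_zero).trans (dvd_pow_self _ (by simp))) fun r => smul_zero r
  obtain ⟨m, hm⟩ := exists_sl_e0 (w := g1 • w) fun e => hw0 (by rw [← inv_smul_smul g1 w, e, smul_zero])
  refine ⟨ι m * g1, fun r hr => ⟨?_, ?_⟩⟩
  · have hm' : ι m ∈ normalizer (ι.range : Set G) := le_normalizer ⟨m, rfl⟩
    have := mul_mem (mul_mem hm' (h1 r hr)) (inv_mem hm')
    show _ ∈ normalizer (ι.range : Set G)
    simpa only [_root_.mul_inv_rev, mul_assoc] using this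
  · show _ • _ = _
    rw [← hm, ← h.act, ← mul_smul (ι m), mul_smul, mul_smul, inv_smul_smul, show r • w = w from hw ⟨r, hr⟩]

theorem TU_pgroup (h : Nat2 p ι) (U : AddSubgroup (Fin 2 → F)) {x : G} (hx : x ∈ TU G U) : x ^ p = 1 :=
  h.faith _ fun w => by
    rw [TU_pow hx, ← Nat.cast_smul_eq_nsmul F, CharP.cast_eq_zero, zero_smul, add_zero]

theorem Nat2.isP (h : Nat2 p ι) {U : AddSubgroup (Fin 2 → F)} {A : Subgroup G} (hA : A ≤ TU G U) : IsPGroup p A :=
  fun x => ⟨1, Subtype.ext (by simpa using TU_pgroup h U (hA x.2))⟩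

theorem eq_of_le {g g' : G} (h : g • l0 F ≤ g' • l0 F) : g • l0 F = g' • l0 F :=
  AddSubgroup.eq_of_le_of_card_ge h (by rw [card_smul, card_smul])

theorem exists_ne {g : G} (h : g • l0 F ≠ l0 F) : ∃ u ∈ g • l0 F, u 1 ≠ 0 := by
  by_contra hc
  push Not at hc
  exact h (by simpa using eq_of_le (g := g) (g' := (1 : G)) (by rw [one_smul]; exact hc))

theorem Nat2.card_u (h : Nat2 p ι) {A : Subgroup G} (hA : ∀ a, ι (uSL a) ∈ A) : Nat.card F ≤ Nat.card A :=
  Nat.card_le_card_of_injective (fun a => (⟨_, hA a⟩ : A)) fun a b e => by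
    have k := h.act (uSL a) ![0, 1]
    rw [show ι (uSL a) = ι (uSL b) from congrArg Subtype.val e, h.act] at k
    simpa [mv0] using (congrFun k 0).symm

theorem Nat2.mem_T (h : Nat2 p ι) {x : G} (hx : x ∈ TU G (l0 F)) : ∃ a, x = ι (uSL a) := by
  let T0 : Subgroup G :=
    { carrier := {x | ∃ a, x = ι (uSL a)}
      mul_mem' := by rintro _ _ ⟨a, rfl⟩ ⟨b, rfl⟩; exact ⟨a + b, by rw [uSL_add, map_mul]⟩
      one_mem' := ⟨0, by simp⟩
      inv_mem' := by rintro _ ⟨a, rfl⟩; exact ⟨-a, by rw [← uSL_inv, map_inv]⟩ }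
  have hle : T0 ≤ TU G (l0 F) := by rintro _ ⟨a, rfl⟩; exact h.u_mem a
  have hc : Nat.card (TU G (l0 F)) ≤ Nat.card F := by
    obtain ⟨g, hg⟩ := h.conj_S0 (h.isP (le_refl (TU G (l0 F))))
    have hS : TU G (g • l0 F) ≤ S0 ι := by rw [TU_smul]; rintro _ ⟨y, hy, rfl⟩; exact hg y hy
    by_cases e : g • l0 F = l0 F
    · rw [e] at hS
      choose f hf using fun y : TU G (l0 F) => h.eq_u (hS y.2).1 y.2
      exact Nat.card_le_card_of_injective f fun a b e => Subtype.ext (by rw [hf, hf, e])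
    · obtain ⟨u, hu, hu1⟩ := exists_ne e
      rw [← card_TU_smul g]
      exact (h.card_le_two hu hu1 le_rfl hS).trans Finite.one_lt_card
  rwa [← eq_of_le_of_card_ge hle (hc.trans (h.card_u fun a => ⟨a, rfl⟩))] at hx

theorem Nat2.card_T (h : Nat2 p ι) (g : G) : Nat.card F ≤ Nat.card (TU G (g • l0 F)) := by
  rw [card_TU_smul]; exact h.card_u h.u_mem

theorem Nat2.fixT (h : Nat2 p ι) {g x : G} (hx : x ∈ TU G (g • l0 F)) (h1 : x ≠ 1) {w : Fin 2 → F} (hw : x • w = w) :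
    w ∈ g • l0 F := by
  have := conj_mem_TU g⁻¹ hx
  rw [inv_smul_smul] at this
  obtain ⟨a, ha⟩ := h.mem_T this
  rw [AddSubgroup.mem_pointwise_smul_iff_inv_smul_mem, mem_l0]
  have k := h.act (uSL a) (g⁻¹ • w)
  rw [← ha, inv_inv, mul_smul, mul_smul, smul_inv_smul, hw] at k
  have k0 := congrFun k 0
  simp [mv0] at k0
  refine k0.resolve_left fun e => h1 ?_
  rw [e, uSL_zero, map_one] at ha
  have := congrArg (fun y => g * y * g⁻¹) ha
  simpa [mul_assoc] using this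

theorem Nat2.lemD (h : Nat2 p ι) (hq : 2 < Nat.card F) {g1 g2 : G} (hne : g1 • l0 F ≠ g2 • l0 F) {A : Subgroup G}
    (hA : A ≤ TU G (g1 • l0 F)) (hst : ∀ a ∈ A, a • g2 • l0 F = g2 • l0 F) : Nat.card A ≤ 2 := by
  have hn : A ≤ normalizer (TU G (g2 • l0 F) : Set G) := fun a ha => mem_normalizer_fintype fun y hy => by
    have := conj_mem_TU a hy
    rwa [hst a ha] at this
  obtain ⟨g, hg⟩ := h.conj_S0 ((h.isP hA).to_sup_of_normal_right' (h.isP le_rfl) hn)
  have h2 : g • g2 • l0 F = l0 F := by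
    by_contra e
    rw [← mul_smul] at e
    obtain ⟨u, hu, hu1⟩ := exists_ne e
    have := h.card_le_two hu hu1 le_rfl (by
      rw [mul_smul, TU_smul]; rintro _ ⟨y, hy, rfl⟩; exact hg y (mem_sup_right hy))
    exact absurd ((h.card_T _).trans this) hq.not_ge
  obtain ⟨u, hu, hu1⟩ := exists_ne (g := g * g1) fun e => hne (MulAction.injective g (by
    show g • _ = g • _
    rw [h2, ← mul_smul, e]))
  rw [← card_map_of_injective (f := (MulAut.conj g).toMonoidHom) (MulAut.conj g).injective]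
  refine h.card_le_two hu hu1 ?_ ?_
  · rw [mul_smul, TU_smul]; exact map_mono hA
  · rintro _ ⟨y, hy, rfl⟩; exact hg y (mem_sup_left hy)

theorem Nat2.semireg (h : Nat2 p ι) (hq : 2 < Nat.card F) (hq4 : Nat.card F ≠ 4) {g1 g2 a : G}
    (hne : g1 • l0 F ≠ g2 • l0 F) (ha : a ∈ TU G (g1 • l0 F)) (hst : a • g2 • l0 F = g2 • l0 F) : a = 1 := by
  by_contra h1
  have hp : p = 2 := by
    have := h.lemD hq hne (A := zpowers a) (zpowers_le.2 ha) (zpowers_le (H := MulAction.stabilizer G _).2 hst)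
    rw [Nat.card_zpowers, orderOf_eq_prime (TU_pgroup h _ ha) h1] at this
    exact le_antisymm this (Fact.out : p.Prime).two_le
  subst hp
  have h2 := h.lemD hq hne.symm (A := TU G (g2 • l0 F) ⊓ centralizer {a}) inf_le_left fun y hy => by
    rw [← mul_smul]
    refine eq_of_le fun w hw => h.fixT ha h1 ?_
    rw [mul_smul, AddSubgroup.mem_pointwise_smul_iff_inv_smul_mem] at hw
    have := ha.1 _ hw
    rw [← mul_smul, mem_centralizer_singleton_iff.1 (inv_mem hy.2) |>.symm, mul_smul] at this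
    exact MulAction.injective y⁻¹ this
  have hsq : ∀ y ∈ TU G (g2 • l0 F), y * y = 1 := fun y hy => by rw [← pow_two, TU_pgroup h _ hy]
  have hcomm : ∀ y ∈ TU G (g2 • l0 F), ∀ z ∈ TU G (g2 • l0 F), y * z = z * y := fun y hy z hz => by
    rw [eq_inv_of_mul_eq_one_left (hsq _ (mul_mem hy hz)), _root_.mul_inv_rev, ← eq_inv_of_mul_eq_one_left (hsq _ hy),
      ← eq_inv_of_mul_eq_one_left (hsq _ hz)]
  have hc : ∀ y ∈ TU G (g2 • l0 F), a * y * a⁻¹ ∈ TU G (g2 • l0 F) := fun y hy => by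
    have := conj_mem_TU a hy
    rwa [hst] at this
  have haa : a⁻¹ = a := (eq_inv_of_mul_eq_one_left (by rw [← pow_two, TU_pgroup h _ ha])).symm
  let φ : TU G (g2 • l0 F) →* (TU G (g2 • l0 F) ⊓ centralizer {a} : Subgroup G) :=
    { toFun := fun y => ⟨y * (a * y * a⁻¹), mul_mem y.2 (hc _ y.2), mem_centralizer_singleton_iff.2 (by
        conv_rhs => rw [hcomm _ y.2 _ (hc _ y.2)]
        have e : a * a = 1 := by nth_rw 1 [← haa]; exact inv_mul_cancel a
        have e2 := hcomm _ y.2 _ (hc _ y.2)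
        rw [haa] at e2 ⊢
        calc (y : G) * (a * y * a) * a = y * a * y * (a * a) := by group
          _ = (a * a) * y * a * y := by rw [e]; group
          _ = _ := by group)⟩
      map_one' := Subtype.ext (by simp)
      map_mul' := fun y z => Subtype.ext (by
        show (y * z : G) * (a * (y * z) * a⁻¹) = y * (a * y * a⁻¹) * (z * (a * z * a⁻¹))
        rw [mul_assoc (y : G) (a * y * a⁻¹), ← mul_assoc (a * y * a⁻¹), hcomm _ (hc _ y.2) _ z.2]
        group) }
  have h3 : Nat.card φ.ker ≤ 2 := by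
    refine le_trans (Nat.card_le_card_of_injective (β := (TU G (g2 • l0 F) ⊓ centralizer {a} : Subgroup G))
      (fun y => ⟨y.1.1, y.1.2, mem_centralizer_singleton_iff.2 ?_⟩) fun y z e =>
        Subtype.ext (Subtype.ext (Subtype.mk.inj e))) h2
    have e : (y.1.1 : G) * (a * y.1.1 * a⁻¹) = 1 := congrArg Subtype.val (MonoidHom.mem_ker.1 y.2)
    rw [← hsq _ y.1.2, mul_right_inj, mul_inv_eq_iff_eq_mul] at e
    exact e.symm
  have h4 : Nat.card (TU G (g2 • l0 F)) ≤ 4 := by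
    rw [← φ.ker.index_mul_card, index_ker]
    exact Nat.mul_le_mul ((card_le_card_group _).trans h2) h3
  have h5 := (h.card_T g2).trans h4
  obtain ⟨n, -, hn⟩ := FiniteField.card F 2
  have : 2 ∣ Nat.card F := by rw [Nat.card_eq_fintype_card, hn]; exact dvd_pow_self 2 n.ne_zero
  omega

theorem Nat2.eq_of_mem (h : Nat2 p ι) (hq4 : Nat.card F ≠ 4) {g1 g2 : G} {w : Fin 2 → F} (hw : w ≠ 0)
    (h1 : w ∈ g1 • l0 F) (h2 : w ∈ g2 • l0 F) : g1 • l0 F = g2 • l0 F := by
  have hD : 2 ≤ Nat.card (g1 • l0 F ⊓ g2 • l0 F : AddSubgroup _) :=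
    Finite.one_lt_card_iff_nontrivial.2 ⟨⟨w, h1, h2⟩, 0, fun e => hw (congrArg Subtype.val e)⟩
  by_cases hq : 2 < Nat.card F
  swap
  · refine eq_of_le (inf_eq_left.1 (AddSubgroup.eq_of_le_of_card_ge inf_le_left ?_))
    rw [card_smul, card_l0]; omega
  by_contra hne
  obtain ⟨⟨a1, a2⟩, hne', hmax⟩ := Set.exists_max_image {x : G × G | x.1 • l0 F ≠ x.2 • l0 F}
    (fun x => Nat.card (x.1 • l0 F ⊓ x.2 • l0 F : AddSubgroup _)) (Set.toFinite _) ⟨(g1, g2), hne⟩
  have hne' : a1 • l0 F ≠ a2 • l0 F := hne'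
  have h3 := hD.trans (hmax (g1, g2) hne)
  obtain ⟨v, hv2, hv1⟩ : ∃ v ∈ a2 • l0 F, v ∉ a1 • l0 F := by
    by_contra k
    push Not at k
    exact hne' (eq_of_le k).symm
  have key : ∀ c ∈ TU G (a1 • l0 F), c • v - v ∈ a2 • l0 F → c = 1 := fun c hc hcv => by
    by_contra hc1
    have k1 : a2 • l0 F ≠ (c * a2) • l0 F := fun e => hc1 (h.semireg hq hq4 hne' hc (by rw [← mul_smul, ← e]))
    have k2 : (a1 • l0 F ⊓ a2 • l0 F : AddSubgroup _) ≤ a2 • l0 F ⊓ (c * a2) • l0 F := fun u hu => ⟨hu.2, by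
      rw [mul_smul, ← hc.1 u hu.1]; exact AddSubgroup.smul_mem_pointwise_smul _ _ _ hu.2⟩
    have k3 : c • v ∈ (a1 • l0 F ⊓ a2 • l0 F : AddSubgroup _) := by
      rw [AddSubgroup.eq_of_le_of_card_ge k2 (hmax (a2, c * a2) k1)]
      exact AddSubgroup.mem_inf.2 ⟨by simpa using add_mem hcv hv2,
        by rw [mul_smul]; exact AddSubgroup.smul_mem_pointwise_smul _ _ _ hv2⟩
    exact hv1 (by simpa using sub_mem (AddSubgroup.mem_inf.1 k3).1 (hc.2 v))
  let f : TU G (a1 • l0 F) × (a1 • l0 F ⊓ a2 • l0 F : AddSubgroup _) → (a1 • l0 F : AddSubgroup _) := fun x =>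
    ⟨(x.1 : G) • v - v + x.2, add_mem (x.1.2.2 v) x.2.2.1⟩
  have hf : Function.Injective f := by
    rintro ⟨x, d⟩ ⟨y, e⟩ k
    have k : (x : G) • v - v + d = (y : G) • v - v + e := congrArg Subtype.val k
    have k1 : x = y := by
      refine Subtype.ext (inv_mul_eq_one.1 (key _ (mul_mem (inv_mem y.2) x.2) ?_)).symm
      have k2 : (x : G) • v = (y : G) • v + (e - d) := by linear_combination k
      rw [mul_smul, k2, smul_add, inv_smul_smul, (inv_mem y.2).1 _ (sub_mem e.2.1 d.2.1), add_sub_cancel_left]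
      exact sub_mem e.2.2 d.2.2
    subst k1
    exact Prod.ext rfl (Subtype.ext (add_left_cancel k))
  have h4 := Nat.card_le_card_of_injective f hf
  rw [Nat.card_prod, card_smul, card_l0] at h4
  have h5 := h.card_T a1
  have h3 : 2 ≤ Nat.card (a1 • l0 F ⊓ a2 • l0 F : AddSubgroup _) := h3
  nlinarith

theorem Nat2.normal (h : Nat2 p ι) (hq4 : Nat.card F ≠ 4) : ι.range.Normal := by
  have key : ∀ g : G, ∀ a, g * ι (uSL a) * g⁻¹ ∈ ι.range := fun g a => by
    have hw : g • (![1, 0] : Fin 2 → F) ≠ 0 := fun e => by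
      have := congrArg (g⁻¹ • ·) e
      simp at this
    obtain ⟨m, hm⟩ := exists_sl_e0 hw
    have e : g • l0 F = (ι m)⁻¹ • l0 F := h.eq_of_mem hq4 hw (AddSubgroup.smul_mem_pointwise_smul _ _ _ rfl) (by
      rw [AddSubgroup.mem_pointwise_smul_iff_inv_smul_mem, inv_inv, h.act, hm]; rfl)
    have h1 := conj_mem_TU (ι m) (conj_mem_TU g (h.u_mem a))
    rw [e, smul_inv_smul] at h1
    obtain ⟨b, hb⟩ := h.mem_T h1
    exact ⟨m⁻¹ * uSL b * m, by rw [map_mul, map_mul, ← hb, map_inv]; group⟩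
  refine ⟨?_⟩
  rintro _ ⟨m, rfl⟩ g
  have : (ι.range.comap (MulAut.conj g).toMonoidHom).comap ι = ⊤ := sl_eq_top_of_uSL_lSL (key g) fun b => by
    have := key (g * ι wSL) (-b)
    rw [← neg_neg b, ← wSL_conj_uSL]
    show g * ι _ * g⁻¹ ∈ ι.range
    simpa only [map_mul, map_inv, _root_.mul_inv_rev, mul_assoc] using this
  exact (this.symm ▸ mem_top m : m ∈ (ι.range.comap (MulAut.conj g).toMonoidHom).comap ι)

/-- The action as automorphisms of the multiplicative copy. -/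
def toMA (H W : Type*) [Group H] [AddCommGroup W] [DistribMulAction H W] : H →* MulAut (Multiplicative W) where
  toFun g := AddEquiv.toMultiplicative (DistribMulAction.toAddEquiv W g)
  map_one' := by ext; simp
  map_mul' a b := by ext; simp [mul_smul]

theorem toMA_apply {H W : Type*} [Group H] [AddCommGroup W] [DistribMulAction H W] (g : H) (w : Multiplicative W) :
    toMA H W g w = Multiplicative.ofAdd (g • w.toAdd) := rfl

theorem Nat2.four (h : Nat2 p ι) (hq4 : Nat.card F = 4) : ι.range.Normal ∨ Nonempty (G ≃* alternatingGroup (Fin 7)) := by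
  have hp : p = 2 := by
    obtain ⟨n, hp, hn⟩ := FiniteField.card F p
    rw [← Nat.card_eq_fintype_card, hq4] at hn
    exact (Nat.prime_dvd_prime_iff_eq hp Nat.prime_two).1 (hp.dvd_of_dvd_pow (n := 2) (by
      rw [show 2 ^ 2 = 4 from rfl, hn]; exact dvd_pow_self p n.ne_zero))
  subst hp
  obtain ⟨f, hf⟩ := Gen.aut_embed (V := Multiplicative (Fin 2 → F)) (fun v => by
    rw [← ofAdd_toAdd v, ← ofAdd_nsmul, ← Nat.cast_smul_eq_nsmul F, CharP.cast_eq_zero, zero_smul]; rfl) (by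
    rw [Nat.card_congr Multiplicative.toAdd, Nat.card_fun, hq4]; simp)
  let f' := (alternatingGroup (Fin 8)).subtype.comp f
  have hf' : Function.Injective f' := Subtype.val_injective.comp hf
  let θ := f'.comp (toMA G (Fin 2 → F))
  have hθ : Function.Injective θ := hf'.comp ((injective_iff_map_eq_one _).2 fun g e => h.faith g fun w =>
    congrArg Multiplicative.toAdd (DFunLike.congr_fun e (Multiplicative.ofAdd w)))
  have hι : Function.Injective ι := (injective_iff_map_eq_one _).2 fun m e => Subtype.ext (Matrix.toLin'.injective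
    (LinearMap.ext fun w => by rw [toLin'_apply, toLin'_apply, ← h.act, ← h.act, e, map_one]))
  have : Fact (Nat.Prime 3) := ⟨by norm_num⟩
  obtain ⟨ω, hω⟩ := exists_prime_orderOf_dvd_card' (G := Fˣ) 3 (by rw [Nat.card_units, hq4])
  obtain ⟨Q⟩ := (inferInstance : Nonempty (Sylow 2 (normalizer (ι.range : Set G))))
  have hQ : ¬ 2 ∣ (Q.1.map (normalizer (ι.range : Set G)).subtype).index := by
    rw [index_map_subtype]
    exact Nat.prime_two.prime.not_dvd_mul Q.not_dvd_index h.idx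
  rcases perm8 (H := (⊤ : Subgroup G).map θ) (L := ι.range.map θ) (S := (Q.1.map (normalizer (ι.range : Set G)).subtype).map θ)
    (c := f' (toMA Fˣ (Fin 2 → F) ω)) (by rintro _ ⟨g, -, rfl⟩; exact (f _).2) (map_mono le_top)
    (by rw [card_map_of_injective hθ, ← Nat.card_congr (MonoidHom.ofInjective hι).toEquiv, card_SL2, hq4])
    (fun K hK => by
      have : K.comap (θ.comp ι) = ⊤ := sl_eq_top_of_uSL_lSL
        (fun b => hK _ ⟨_, ⟨_, rfl⟩, rfl⟩ (by rw [← map_pow, uSL_pow, CharP.cast_eq_zero, zero_mul, uSL_zero, map_one]))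
        (fun b => hK _ ⟨_, ⟨_, rfl⟩, rfl⟩ (by rw [← map_pow, lSL_pow, CharP.cast_eq_zero, zero_mul, lSL_zero, map_one]))
      rintro _ ⟨_, ⟨m, rfl⟩, rfl⟩
      exact (this.symm ▸ mem_top m : m ∈ K.comap (θ.comp ι)))
    (by
      rw [orderOf_injective _ hf', orderOf_injective _ ((injective_iff_map_eq_one _).2 fun g e => ?_), hω]
      have := congrFun (congrArg Multiplicative.toAdd (DFunLike.congr_fun e (Multiplicative.ofAdd ![1, 0]))) 0
      simpa [toMA_apply, Units.smul_def] using this)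
    (by
      rintro _ ⟨_, ⟨m, rfl⟩, rfl⟩
      refine Commute.map (MulEquiv.ext fun w => ?_) f'
      simp only [MulAut.mul_apply, toMA_apply, toAdd_ofAdd, Units.smul_def, h.smul_comm'])
    ((Q.isPGroup'.map _).map _) ((map_mono (map_subtype_le _)).trans (le_normalizer_map _)) (map_mono le_top)
    (by rwa [relIndex_map_map_of_injective _ _ hθ, relIndex_top_right]) with e | ⟨⟨e⟩⟩
  · refine Or.inl ⟨fun x hx g => ?_⟩
    obtain ⟨y, hy, e⟩ := (mem_normalizer_iff.1 (e ⟨g, trivial, rfl⟩) _).1 ⟨x, hx, rfl⟩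
    rw [← map_inv, ← map_mul, ← map_mul] at e
    exact hθ e ▸ hy
  · exact Or.inr ⟨(topEquiv.symm.trans (equivMapOfInjective _ _ hθ)).trans e⟩

end Cfsg.Agent.Gen2.NSL
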