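import Cfsg.Agent.BG.S3Wielandt
import Cfsg.Agent.Solv.CoprimeSylow
import Cfsg.Agent.Gen2.Cyc
import Cfsg.Agent.Gen2.Basic

/-! Wielandt's fixed point formula for a solvable acting group, and the Navarro–Rizo formula for a
`p`-group acting on a `p'`-group. -/

set_option autoImplicit false
open Subgroup Finset
open Cfsg.Agent.Loc

namespace Cfsg.Agent.Gen2

variable {G : Type*} [Group G]

open scoped Classical in
/-- Wielandt's fixed point formula when the acting group `L` is solvable. -/
theorem wielandt_fixpoint [Finite G] {L V : Subgroup G} {ι : Type*} (s : Finset ι)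
    (B : ι → Subgroup G) (m n : ι → ℕ) (hB : ∀ i ∈ s, B i ≤ L) (hn : L ≤ normalizer (V : Set G))
    (hc : (Nat.card V).Coprime (Nat.card L)) [Group.IsSolvable L]
    (h : ∀ a ∈ L, ∑ i ∈ s, (B i : Set G).indicator (fun _ => m i) a =
      ∑ i ∈ s, (B i : Set G).indicator (fun _ => n i) a) :
    ∏ i ∈ s, Nat.card (V ⊓ centralizer (B i : Set G) : Subgroup G) ^ (m i * Nat.card (B i)) =
      ∏ i ∈ s, Nat.card (V ⊓ centralizer (B i : Set G) : Subgroup G) ^ (n i * Nat.card (B i)) := by
  have h0 : ∀ (V : Subgroup G) (m : ι → ℕ), ∀ i ∈ s,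
      Nat.card (V ⊓ centralizer (B i : Set G) : Subgroup G) ^ (m i * Nat.card (B i)) ≠ 0 :=
    fun V m i _ => pow_ne_zero _ Nat.card_pos.ne'
  refine Nat.eq_of_factorization_eq (prod_ne_zero_iff.2 (h0 V m)) (prod_ne_zero_iff.2 (h0 V n))
    fun q => ?_
  by_cases hq : q.Prime
  swap
  · simp [Nat.factorization_eq_zero_of_not_prime _ hq]
  have := Fact.mk hq
  obtain ⟨Q, hQ, hLQ⟩ := Solv.exists_invariant_sylIn hn hc.symm (Or.inl inferInstance) q
  have := hQ.pg.isNilpotent
  have h1 := congrArg (fun k => k.factorization q) (BG.solvable_Wielandt_fixpoint s B m n hB hLQ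
    (Solv.coprime_of_le hc.symm hQ.le).symm inferInstance fun a ha => by
      simpa only [sum_filter, Set.indicator_apply, SetLike.mem_coe] using h a ha)
  have h2 : ∀ i ∈ s, (Nat.card (Q ⊓ centralizer (B i : Set G) : Subgroup G)).factorization q =
      (Nat.card (V ⊓ centralizer (B i : Set G) : Subgroup G)).factorization q := fun i hi => by
    have := Solv.isSolvable_of_le (hB i hi)
    rw [(Solv.sylIn_inf_centralizer ((hB i hi).trans hn) (Solv.coprime_of_le_left hc.symm (hB i hi))
      (Or.inl inferInstance) hQ ((hB i hi).trans hLQ)).card_eq_pow, hq.factorization_pow,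
      Finsupp.single_eq_same]
  simp only [Nat.factorization_prod (h0 _ _), Finsupp.finsetSum_apply, Nat.factorization_pow,
    Finsupp.smul_apply] at h1 ⊢
  rw [← sum_congr rfl fun i hi => congrArg _ (h2 i hi),
    ← sum_congr rfl fun i hi => congrArg _ (h2 i hi)]
  exact h1

open scoped Classical in
theorem card_filter_zpowers_eq [Fintype G] (a : G) :
    #{x : G | zpowers x = zpowers a} = (orderOf a).totient := by
  rw [← IsCyclic.card_orderOf_eq_totient (α := zpowers a) (by rw [Fintype.card_zpowers])]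
  refine (card_bij (fun (x : zpowers a) _ => (x : G)) (fun x hx => ?_) (fun _ _ _ _ h => Subtype.ext h)
    fun x hx => ?_).symm
  · simp only [mem_filter, mem_univ, true_and] at hx ⊢
    refine eq_of_le_of_card_ge (zpowers_le.2 x.2) ?_
    rw [Nat.card_zpowers, Nat.card_zpowers, orderOf_coe, hx]
  · simp only [mem_filter, mem_univ, true_and] at hx ⊢
    refine ⟨⟨x, hx ▸ mem_zpowers x⟩, ?_, rfl⟩
    rw [orderOf_mk, ← Nat.card_zpowers, hx, Nat.card_zpowers]

theorem mem_zpowers_pow_iff [Finite G] {p k : ℕ} (hp : p.Prime) {x a : G}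
    (hx : orderOf x = p ^ (k + 1)) (ha : a ∈ zpowers x) :
    a ∈ zpowers (x ^ p) ↔ zpowers x ≠ zpowers a := by
  have h1 : orderOf (x ^ p) = p ^ k := by
    rw [orderOf_pow_of_dvd hp.ne_zero (hx ▸ dvd_pow_self p k.succ_ne_zero), hx, pow_succ,
      Nat.mul_div_cancel _ hp.pos]
  constructor
  · intro h e
    have h2 := orderOf_dvd_of_mem_zpowers h
    rw [← Nat.card_zpowers, ← e, Nat.card_zpowers, hx, h1, Nat.pow_dvd_pow_iff_le_right hp.one_lt] at h2
    omega
  · intro h
    obtain ⟨j, hj, hja⟩ := (Nat.dvd_prime_pow hp).1 (hx ▸ orderOf_dvd_of_mem_zpowers ha)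
    refine mem_zpowers_of_orderOf_dvd ha (pow_mem (mem_zpowers x) p) ?_
    rw [hja, h1]
    refine pow_dvd_pow p (Nat.le_of_lt_succ (lt_of_le_of_ne hj fun e => h (Eq.symm ?_)))
    refine eq_of_le_of_card_ge (zpowers_le.2 ha) ?_
    rw [Nat.card_zpowers, Nat.card_zpowers, hx, hja, e]

open scoped Classical in
theorem navarro_rizo_sum {p : ℕ} [hp : Fact p.Prime] [Fintype G] (hG : IsPGroup p G) (a : G) :
    ∑ x : G, (if a ∈ zpowers x then p * (Nat.card G / orderOf x) else 0) =
      ∑ x : G, (if a ∈ zpowers (x ^ p) then Nat.card G / orderOf (x ^ p) else 0) +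
        (p - 1) * Nat.card G := by
  have h1 : (p - 1) * Nat.card G = ∑ x : G, if zpowers x = zpowers a then
      (if a = 1 then p - 1 else p) * (Nat.card G / orderOf a) else 0 := by
    rw [← sum_filter, sum_const, card_filter_zpowers_eq, smul_eq_mul]
    split_ifs with h
    · simp [h]
    · obtain ⟨k, hk⟩ := IsPGroup.iff_orderOf.1 hG a
      obtain ⟨c, hc⟩ := orderOf_dvd_natCard a
      obtain ⟨k, rfl⟩ := Nat.exists_eq_add_one_of_ne_zero (n := k) (by
        rintro rfl
        exact h (orderOf_eq_one_iff.1 hk))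
      rw [hc, Nat.mul_div_cancel_left _ (orderOf_pos a), hk, Nat.totient_prime_pow_succ hp.out]
      ring
  rw [h1, ← sum_add_distrib]
  refine sum_congr rfl fun x _ => ?_
  by_cases ha : a ∈ zpowers x
  swap
  · rw [if_neg ha, if_neg fun h => ha (zpowers_le.2 (pow_mem (mem_zpowers x) p) h),
      if_neg fun h : zpowers x = zpowers a => ha (h ▸ mem_zpowers a)]
  obtain ⟨k, hk⟩ := IsPGroup.iff_orderOf.1 hG x
  rcases k with _ | k
  · obtain rfl : x = 1 := orderOf_eq_one_iff.1 hk
    obtain rfl : a = 1 := by simpa using ha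
    obtain ⟨q, rfl⟩ := Nat.exists_eq_add_one_of_ne_zero hp.out.ne_zero
    simp
    ring
  rw [if_pos ha]
  simp only [mem_zpowers_pow_iff hp.out hk ha]
  by_cases h : zpowers x = zpowers a
  · have h2 : orderOf x = orderOf a := by rw [← Nat.card_zpowers, h, Nat.card_zpowers]
    rw [if_neg (not_not.2 h), if_pos h, if_neg, zero_add, h2]
    rintro rfl
    rw [orderOf_one, hk] at h2
    exact (Nat.one_lt_pow k.succ_ne_zero hp.out.one_lt).ne' h2
  · obtain ⟨c, hc⟩ := orderOf_dvd_natCard x
    rw [if_pos h, if_neg h, add_zero, orderOf_pow_of_dvd hp.out.ne_zero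
      (hk ▸ dvd_pow_self p k.succ_ne_zero), hc, Nat.mul_div_cancel_left _ (orderOf_pos x), hk,
      pow_succ, Nat.mul_div_cancel _ hp.out.pos, mul_assoc,
      Nat.mul_div_cancel_left _ (pow_pos hp.out.pos k)]

/-- **Navarro–Rizo formula.** -/
theorem navarro_rizo [Finite G] {p : ℕ} [hp : Fact p.Prime] {P V : Subgroup G} [Fintype P]
    (hP : IsPGroup p P) (hn : P ≤ normalizer (V : Set G)) (hc : (Nat.card V).Coprime p) :
    ∏ x : P, Nat.card (V ⊓ centralizer ({(x : G)} : Set G) : Subgroup G) ^ p =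
      (∏ x : P, Nat.card (V ⊓ centralizer ({(x : G) ^ p} : Set G) : Subgroup G)) *
        Nat.card (V ⊓ centralizer (P : Set G) : Subgroup G) ^ ((p - 1) * Nat.card P) := by
  classical
  have := hP.isNilpotent
  have h := wielandt_fixpoint (L := P) (V := V) (univ : Finset (P ⊕ P ⊕ Unit))
    (Sum.elim (fun x => zpowers (x : G)) (Sum.elim (fun x => zpowers ((x : G) ^ p)) fun _ => P))
    (Sum.elim (fun x => p * (Nat.card P / orderOf x)) 0)
    (Sum.elim 0 (Sum.elim (fun x => Nat.card P / orderOf (x ^ p)) fun _ => (p - 1) * Nat.card P))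
    (by
      rintro (x | x | x) -
      · exact zpowers_le.2 x.2
      · exact zpowers_le.2 (P.pow_mem x.2 p)
      · exact le_rfl) hn (Solv.coprime_card_of_isPGroup hP hc).symm (fun a ha => by
      have h1 := navarro_rizo_sum hP ⟨a, ha⟩
      have h2 : ∀ x : P, (⟨a, ha⟩ : P) ∈ zpowers x ↔ a ∈ zpowers (x : G) := fun x => by
        rw [← mem_map_iff_mem P.subtype_injective, MonoidHom.map_zpowers]
        rfl
      simp only [h2] at h1
      simp only [Fintype.sum_sum_type, Sum.elim_inl, Sum.elim_inr, Pi.zero_apply]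
      simp only [Set.indicator_apply, SetLike.mem_coe,
        ite_self, sum_const_zero, add_zero, zero_add, Fintype.sum_unique, if_pos ha]
      exact h1)
  have h3 : ∀ x : P, Nat.card P / orderOf x * orderOf x = Nat.card P := fun x =>
    Nat.div_mul_cancel (orderOf_dvd_natCard x)
  simp only [Fintype.prod_sum_type, Sum.elim_inl, Sum.elim_inr, Pi.zero_apply, zero_mul, pow_zero,
    prod_const_one, mul_one, one_mul, Nat.card_zpowers, centralizer_zpowers, ← Subgroup.coe_pow,
    orderOf_coe, mul_assoc, h3, Fintype.prod_unique] at h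
  refine Nat.pow_left_injective (Nat.card_pos (α := P)).ne' ?_
  simp only [mul_pow, ← prod_pow, ← pow_mul, mul_assoc, ← Subgroup.coe_pow]
  exact h

end Cfsg.Agent.Gen2
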