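import Cfsg.Agent.Gen2.PPClass
import Cfsg.Agent.Gen2.MinInv
import Cfsg.Agent.Gen2.FixCount
import Cfsg.Agent.Solv.Separable

/-!
`p`-elements of `p`-power class size: Wielandt's lemma `mem_pCore_of_cs`, central elements of
normal subgroups all of whose class sizes are `1` or divisible by `p` (`dvd_card_inf_center`),
and `eq_bot_of_cs` (a normal `p`-subgroup `U = [U, K]` all of whose elements have `p`-power class
size is trivial).
-/

namespace Cfsg.Agent.Gen2

open Subgroup

variable {G : Type*} [Group G] [Finite G] {p : ℕ}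

/-- Wielandt's lemma. -/
theorem mem_pCore_of_cs [hp : Fact p.Prime] {x : G} {k : ℕ} (h : ∃ j, orderOf x = p ^ j)
    (hx : (centralizer ({x} : Set G)).index = p ^ k) : x ∈ pCore p G := by
  obtain ⟨k', -, hk⟩ := (Nat.dvd_prime_pow hp.out).1 (hx ▸ cs_quotient_dvd (pCore p G) x)
  have h1 := Solv.le_pCore_of_le_fitting
    (isPGroup_zpowers_iff.2 (pElt_map (QuotientGroup.mk' (pCore p G)) h))
    (zpowers_le.2 (mem_fitting_of_cs hp.out (Solv.pCore_quotient_pCore p G) hk))
  rw [Solv.pCore_quotient_pCore] at h1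
  exact (QuotientGroup.eq_one_iff x).1 (mem_bot.1 (h1 (mem_zpowers _)))

theorem dvd_card_inf_center {N : Subgroup G} [hN : N.Normal] {d : ℕ} (hd : d ∣ Nat.card N)
    (h : ∀ x ∈ N, x ∉ center G → d ∣ (centralizer ({x} : Set G)).index) :
    d ∣ Nat.card (N ⊓ center G : Subgroup G) := by
  have h1 := dvd_ncard_of_forall_dvd_orbit (G := ConjAct G) ((N : Set G) \ center G)
    (fun g b hb => ⟨hN.conj_mem b hb.1 _, fun h => hb.2 (by
      have := (normal_of_characteristic (center G)).conj_mem _ h (ConjAct.ofConjAct g)⁻¹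
      simpa [ConjAct.smul_def, mul_assoc] using this)⟩) (d := d) fun b hb => by
    rw [ConjAct.stabilizer_eq_centralizer]
    exact h b hb.1 hb.2
  have h2 := Set.ncard_inter_add_ncard_sdiff_eq_ncard (N : Set G) (center G)
  rw [← coe_inf] at h2
  change d ∣ ((N ⊓ center G : Subgroup G) : Set G).ncard
  change d ∣ (N : Set G).ncard at hd
  rw [← h2] at hd
  exact (Nat.dvd_add_left h1).1 hd

theorem eq_bot_of_cs [hp : Fact p.Prime] {U K : Subgroup G} [hN : U.Normal] (hU : IsPGroup p U)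
    (hK : ⁅U, K⁆ = U) (h : ∀ x ∈ U, ∃ k, (centralizer ({x} : Set G)).index = p ^ k) : U = ⊥ := by
  by_contra h0
  obtain ⟨M, -, ⟨hM, hMU⟩, hmax⟩ := exists_maximal_ge_of_wellFoundedGT
    (fun M : Subgroup G => M.Normal ∧ M < U) ⊥ ⟨inferInstance, bot_lt_iff_ne_bot.2 h0⟩
  have hs := QuotientGroup.mk'_surjective M
  have := hN.map _ hs
  have h1 : U.map (QuotientGroup.mk' M) ≠ ⊥ := by
    rw [Ne, Subgroup.map_eq_bot_iff, QuotientGroup.ker_mk']; exact hMU.not_ge
  have h2 := dvd_card_inf_center (N := U.map (QuotientGroup.mk' M)) (d := p)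
    (((hU.map _).card_eq_or_dvd).resolve_left (by rwa [card_eq_one])) (by
      rintro _ ⟨x, hx, rfl⟩ hc
      obtain ⟨k, hk⟩ := h x hx
      obtain ⟨j, -, hj⟩ := (Nat.dvd_prime_pow hp.out).1 (hk ▸ cs_quotient_dvd M x)
      rw [QuotientGroup.mk'_apply, hj]
      refine dvd_pow_self p fun h0 => hc (cs_eq_one_iff.1 ?_)
      rw [QuotientGroup.mk'_apply, hj, h0, pow_zero])
  have h3 : U.map (QuotientGroup.mk' M) ⊓ center _ ≠ ⊥ := fun h => by
    rw [h, card_bot] at h2; exact hp.out.not_dvd_one h2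
  have h4 : (U.map (QuotientGroup.mk' M) ⊓ center _).comap (QuotientGroup.mk' M) ≤ U :=
    (comap_mono inf_le_left).trans (by rw [Solv.comap_map_mk']; exact sup_le le_rfl hMU.le)
  have h5 := Solv.lt_comap_mk' M h3
  rcases h4.lt_or_eq with h6 | h6
  · exact h5.not_ge (hmax ⟨inferInstance, h6⟩ h5.le)
  · refine hMU.not_ge (hK.ge.trans (commutator_le.2 fun x hx k _ => ?_))
    have h7 := mem_center_iff.1 (h6.ge hx).2 (k : G ⧸ M)
    rw [← QuotientGroup.eq_one_iff, commutatorElement_def]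
    simp only [QuotientGroup.mk'_apply] at h7
    simp [← h7]

end Cfsg.Agent.Gen2
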