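import Cfsg.Agent.PLocal.PSolv
import Cfsg.Agent.Solv.Hall
import Cfsg.Agent.Solv.MinNormal
import Cfsg.Agent.SolvStr.Frattini

/-! `p`-solvable groups all of whose maximal subgroups are `p`-nilpotent or of prime index satisfy
`G = O_{p',p,p',p}(G)` (`Gen2.PnMax.main`). -/

set_option autoImplicit false

namespace Cfsg.Agent.Gen2.PnMax

open Subgroup Cfsg

universe u

/-- The hypothesis on maximal subgroups. -/
def Hyp (p : ℕ) (G : Type u) [Group G] : Prop :=
  ∀ M : Subgroup G, IsCoatom M →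
    (∃ K : Subgroup ↥M, K.Normal ∧ ¬ p ∣ Nat.card K ∧ ∃ k : ℕ, K.index = p ^ k) ∨ (M.index).Prime

/-- The conclusion. -/
def Concl (p : ℕ) (G : Type u) [Group G] : Prop :=
  ∃ A B C : Subgroup G, A.Normal ∧ B.Normal ∧ C.Normal ∧ A ≤ B ∧ B ≤ C ∧ ¬ p ∣ Nat.card A ∧
    (∃ k : ℕ, A.relIndex B = p ^ k) ∧ ¬ p ∣ B.relIndex C ∧ ∃ k : ℕ, C.index = p ^ k

variable {p : ℕ}

theorem pnil_surj [hp : Fact p.Prime] {G : Type*} {H : Type*} [Group G] [Group H] [Finite G]
    (f : G →* H) (hf : Function.Surjective f)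
    (h : ∃ K : Subgroup G, K.Normal ∧ ¬ p ∣ Nat.card K ∧ ∃ k : ℕ, K.index = p ^ k) :
    ∃ K : Subgroup H, K.Normal ∧ ¬ p ∣ Nat.card K ∧ ∃ k : ℕ, K.index = p ^ k := by
  obtain ⟨K, hK, h1, k, hk⟩ := h
  refine ⟨K.map f, hK.map f hf, fun h => h1 (h.trans (card_map_dvd K f)), ?_⟩
  have := index_map_dvd K hf
  rw [hk] at this
  obtain ⟨j, -, hj⟩ := (Nat.dvd_prime_pow hp.out).1 this
  exact ⟨j, hj⟩

theorem Hyp.surj [Fact p.Prime] {G H : Type u} [Group G] [Group H] [Finite G] (h : Hyp p G)
    (f : G →* H) (hf : Function.Surjective f) : Hyp p H := by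
  intro M hM
  have hc : IsCoatom (M.comap f) := isCoatom_comap_of_surjective hf hM
  rcases h _ hc with h | h
  · left
    refine pnil_surj (f.subgroupComap M) ?_ h
    exact MonoidHom.subgroupComap_surjective_of_surjective f M hf
  · right
    rwa [index_comap_of_surjective _ hf] at h

theorem relIndex_comap_surj {G H : Type*} [Group G] [Group H] (f : G →* H)
    (hf : Function.Surjective f) (A B : Subgroup H) :
    (A.comap f).relIndex (B.comap f) = A.relIndex B := by
  rw [relIndex_comap, map_comap_eq_self_of_surjective hf]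

/-- With `O_{p'} = 1`, a normal subgroup that is `p'` over a central or Frattini normal
`p`-subgroup is a `p`-group. -/
theorem isPGroup_of [hp : Fact p.Prime] {G : Type u} [Group G] [Finite G] (hs : IsPSolvable p G)
    (hO : pPrimeCore p G = ⊥) {N A : Subgroup G} [N.Normal] [A.Normal] (hNA : N ≤ A)
    (hN : IsPGroup p N) (hi : ¬ p ∣ N.relIndex A)
    (h : N ≤ frattini G ∨ A ≤ centralizer (N : Set G)) : IsPGroup p A := by
  have hok : Solv.HallOK {p}ᶜ A := (Solv.HallOK.of_isPSolvable' hs).subgroup A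
  obtain ⟨H, hH⟩ := hok.exists_hallOf
  have hHc : (Nat.card H).Coprime p := (Solv.isPiNum_compl_singleton_iff hp.out).1 hH.2.1
  have hHi : ∃ k, H.relIndex A = p ^ k := by
    refine (Solv.isPiNum_singleton_iff hp.out index_ne_zero_of_finite).1 fun q hq hqd => ?_
    by_contra hne
    exact hH.2.2 q hq hne hqd
  have hsup : N ⊔ H = A := by
    apply le_antisymm (sup_le hNA hH.1)
    rw [← relIndex_eq_one]
    obtain ⟨k, hk⟩ := hHi
    have h1 : (N ⊔ H).relIndex A ∣ p ^ k := hk ▸ relIndex_dvd_of_le_left _ le_sup_right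
    have h2 : (N ⊔ H).relIndex A ∣ N.relIndex A := relIndex_dvd_of_le_left _ le_sup_left
    obtain ⟨j, -, hj⟩ := (Nat.dvd_prime_pow hp.out).1 h1
    rcases j with _ | j
    · simpa using hj
    · exact absurd ((hj ▸ dvd_pow_self p (Nat.succ_ne_zero j)).trans h2) hi
  have hF := hok.frattini_sup hH (le_top (a := A)) (by rw [normalizer_eq_top])
  rw [top_inf_eq, ← hsup, sup_assoc, sup_eq_right.2 (le_normalizer (H := H))] at hF
  have hn : normalizer (H : Set G) = ⊤ := by
    rcases h with h | h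
    · exact SolvStr.eq_top_of_sup_of_le_frattini h hF
    · rw [← hF, eq_comm, sup_eq_right]
      exact (le_centralizer_iff.1 (hH.1.trans h)).trans (centralizer_le_normalizer _)
  have hb : H = ⊥ := eq_bot_iff.2 (hO ▸ PLocal.le_pPrimeCore (normalizer_eq_top_iff.1 hn) hHc)
  rw [hb, sup_bot_eq] at hsup
  exact hsup ▸ hN

theorem not_dvd_index_centralizer [hp : Fact p.Prime] {G : Type u} [Group G] [Finite G]
    {N : Subgroup G} [N.Normal] (hN : Nat.card N = p) : ¬ p ∣ (centralizer (N : Set G)).index := by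
  haveI : IsCyclic N := isCyclic_of_prime_card hN
  have h1 : (MulAut.conjNormal (H := N)).ker = centralizer (N : Set G) := by
    ext g
    rw [MonoidHom.mem_ker, mem_centralizer_iff]
    constructor
    · intro h n hn
      have := congrArg (fun e : MulAut N => ((e ⟨n, hn⟩ : N) : G)) h
      simp only [MulAut.conjNormal_apply, MulAut.one_apply] at this
      exact (mul_inv_eq_iff_eq_mul.1 this).symm
    · intro h
      ext n
      simp only [MulAut.conjNormal_apply, MulAut.one_apply]
      rw [← h n n.2]; group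
  rw [← h1, index_ker]
  intro h
  have h2 := h.trans (card_subgroup_dvd_card _)
  rw [IsCyclic.card_mulAut, hN, Nat.totient_prime hp.out] at h2
  have := Nat.le_of_dvd (by have := hp.out.two_le; omega) h2
  have := hp.out.two_le
  omega

theorem main_aux [hp : Fact p.Prime] (n : ℕ) : ∀ (G : Type u) [Group G] [Finite G],
    Nat.card G = n → IsPSolvable p G → Hyp p G → Concl p G := by
  induction n using Nat.strong_induction_on with
  | _ n ih =>
  intro G _ _ hn hs hH
  have quo : ∀ (N : Subgroup G) [N.Normal], N ≠ ⊥ → ∃ A B C : Subgroup G, A.Normal ∧ B.Normal ∧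
      C.Normal ∧ N ≤ A ∧ A ≤ B ∧ B ≤ C ∧ ¬ p ∣ N.relIndex A ∧ (∃ k : ℕ, A.relIndex B = p ^ k) ∧
      ¬ p ∣ B.relIndex C ∧ ∃ k : ℕ, C.index = p ^ k := by
    intro N _ hN
    have hf := QuotientGroup.mk'_surjective N
    have hlt : Nat.card (G ⧸ N) < n := by
      rw [← hn, ← N.index_mul_card]
      exact lt_mul_of_one_lt_right (Nat.pos_of_ne_zero index_ne_zero_of_finite)
        ((one_lt_card_iff_ne_bot N).2 hN)
    obtain ⟨A, B, C, hA, hB, hC, h1, h2, h3, h4, h5, h6⟩ :=
      ih _ hlt (G ⧸ N) rfl (PLocal.pSolv_quotient hs N) (hH.surj _ hf)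
    refine ⟨A.comap (QuotientGroup.mk' N), B.comap (QuotientGroup.mk' N),
      C.comap (QuotientGroup.mk' N), hA.comap _, hB.comap _, hC.comap _, ?_, comap_mono h1,
      comap_mono h2, ?_, ?_, ?_, ?_⟩
    · exact (QuotientGroup.ker_mk' N).ge.trans (ker_le_comap _ _)
    · rw [← PLocal.card_map_mk', map_comap_eq_self_of_surjective hf]; exact h3
    · rwa [relIndex_comap_surj _ hf]
    · rwa [relIndex_comap_surj _ hf]
    · rwa [index_comap_of_surjective _ hf]
  rcases subsingleton_or_nontrivial G with hG | hG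
  · refine ⟨⊤, ⊤, ⊤, inferInstance, inferInstance, inferInstance, le_rfl, le_rfl, ?_, ⟨0, by simp⟩,
      by simpa using hp.out.one_lt.ne', 0, by simp⟩
    rw [Nat.card_of_subsingleton (1 : (⊤ : Subgroup G))]
    simpa using hp.out.one_lt.ne'
  by_cases hO : pPrimeCore p G = ⊥
  swap
  · obtain ⟨A, B, C, hA, hB, hC, h0, h1, h2, h3, h4, h5, h6⟩ := quo _ hO
    refine ⟨A, B, C, hA, hB, hC, h1, h2, ?_, h4, h5, h6⟩
    rw [← relIndex_bot_left, ← relIndex_mul_relIndex _ _ _ bot_le h0, relIndex_bot_left,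
      hp.out.dvd_mul]
    rintro (h | h)
    · exact (Nat.Prime.coprime_iff_not_dvd hp.out).1 (PLocal.coprime_pPrimeCore p G).symm h
    · exact h3 h
  have hP : pCore p G ≠ ⊥ := (PLocal.core_ne_bot_of_pSolv hs).resolve_right (by simpa using hO)
  obtain ⟨N, hNn, hN0, hNP, hmin⟩ := Solv.exists_minimal_normal_le _ hP
  have hNp : IsPGroup p N := (Loc.isPGroup_pCore p G).to_le hNP
  haveI : Group.IsNilpotent N := hNp.isNilpotent
  haveI := (Solv.elementary_of_minimal_normal hN0 hmin).1
  obtain ⟨A, B, C, hA, hB, hC, h0, h1, h2, h3, h4, h5, h6⟩ := quo _ hN0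
  have fin : ∀ D : Subgroup G, D.Normal → N ≤ D → ¬ p ∣ D.index →
      (N ≤ frattini G ∨ D ≤ centralizer (N : Set G)) → Concl p G := by
    intro D hD hND hDi hc
    have hAD : IsPGroup p (A ⊓ D : Subgroup G) := by
      refine isPGroup_of hs hO (le_inf h0 hND) hNp (fun h => h3 (h.trans ?_))
        (hc.imp id fun h => inf_le_right.trans h)
      exact PLocal.relIndex_dvd_of_le_right_of_normal inf_le_left
    obtain ⟨a, ha⟩ := IsPGroup.iff_card.1 hAD
    obtain ⟨k, hk⟩ := h4
    have h7 : (A ⊓ D).relIndex (B ⊓ D) ∣ p ^ k := by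
      rw [← hk]
      have : (A ⊓ D).relIndex (B ⊓ D) = A.relIndex (B ⊓ D) := by
        rw [← inf_relIndex_right A (B ⊓ D), ← inf_assoc, inf_eq_left.2 h1]
      rw [this]
      exact PLocal.relIndex_dvd_of_le_right_of_normal inf_le_left
    obtain ⟨j, -, hj⟩ := (Nat.dvd_prime_pow hp.out).1 h7
    refine ⟨⊥, B ⊓ D, C, inferInstance, inferInstance, hC, bot_le, inf_le_left.trans h2,
      by simpa using hp.out.one_lt.ne', ⟨a + j, ?_⟩, ?_, h6⟩
    · rw [← relIndex_mul_relIndex _ _ _ bot_le (inf_le_inf_right D h1), relIndex_bot_left, ha, hj,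
        pow_add]
    · rw [← relIndex_mul_relIndex _ _ _ inf_le_left h2, hp.out.dvd_mul, inf_relIndex_left]
      rintro (h | h)
      · exact hDi (h.trans (relIndex_dvd_index_of_normal _ _))
      · exact h5 h
  by_cases hF : N ≤ frattini G
  · exact fin ⊤ inferInstance le_top (by simpa using hp.out.one_lt.ne') (Or.inl hF)
  obtain ⟨M, hM, hNM⟩ := SolvStr.exists_isCoatom_not_le hF
  have hsup := SolvStr.sup_eq_top_of_isCoatom hM hNM
  have hinf : N ⊓ M = ⊥ := by
    rcases hmin _ (SolvStr.normal_inf_of_sup_eq_top hsup) inf_le_left with h | h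
    · exact h
    · exact absurd (inf_eq_left.1 h) hNM
  obtain ⟨a, ha⟩ := IsPGroup.iff_card.1 hNp
  rcases hH M hM with h | h
  · have hf := QuotientGroup.mk'_surjective N
    have hsurj : Function.Surjective ((QuotientGroup.mk' N).comp M.subtype) := by
      rw [← MonoidHom.range_eq_top, MonoidHom.range_comp, range_subtype,
        ← map_top_of_surjective _ hf, ← hsup, Subgroup.map_sup, QuotientGroup.map_mk'_self,
        bot_sup_eq]
    obtain ⟨K, hK, hK1, hK2⟩ := pnil_surj _ hsurj h
    refine ⟨⊥, N, K.comap (QuotientGroup.mk' N), inferInstance, hNn, hK.comap _, bot_le,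
      (QuotientGroup.ker_mk' N).ge.trans (ker_le_comap _ _), by simpa using hp.out.one_lt.ne',
      ⟨a, by rw [relIndex_bot_left, ha]⟩, ?_, by rwa [index_comap_of_surjective _ hf]⟩
    rw [← PLocal.card_map_mk', map_comap_eq_self_of_surjective hf]; exact hK1
  · have hc := (SolvStr.isComplement'_of_inf_sup hinf hsup).index_eq_card
    have hNc : Nat.card N = p := by
      rw [hc, ha] at h
      rw [ha]
      rw [(Nat.Prime.pow_eq_iff h).1 rfl |>.2, pow_one]
    exact fin (centralizer (N : Set G)) inferInstance (le_centralizer N)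
      (not_dvd_index_centralizer hNc) (Or.inr le_rfl)

theorem main [Fact p.Prime] {G : Type u} [Group G] [Finite G] (hs : IsPSolvable p G)
    (h : Hyp p G) : Concl p G := main_aux _ G rfl hs h

end Cfsg.Agent.Gen2.PnMax
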