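import Cfsg.Agent.BG.Base2
import Cfsg.Prelude.Def_HallClasses

/-! Pronormal subgroups: transfer along maps (`prn_map`, `prn_of_map`, `prn_subgroupOf`), the
predicate `PrnX p G` (all overgroups of Sylow `p`-subgroups are pronormal) and the extension
criterion `prnX_of_normal` (Guo–Maslova–Revin). -/

namespace Cfsg.Agent.Gen2

open Subgroup Cfsg.Agent.BG

variable {G G' : Type*} [Group G] [Group G'] {p : ℕ} {H M A T : Subgroup G}

theorem map_cj' (f : G →* G') (g : G) (H : Subgroup G) : (cj g H).map f = cj (f g) (H.map f) := by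
  rw [cj_def, cj_def, map_map, map_map]
  congr 1
  ext x
  simp

theorem prn_iff : IsPronormal H ↔ ∀ g, ∃ x ∈ H ⊔ cj g H, cj g H = cj x H := Iff.rfl

theorem prn_map (h : IsPronormal H) {f : G →* G'} (hf : Function.Surjective f) :
    IsPronormal (H.map f) := prn_iff.2 fun g => by
  obtain ⟨g, rfl⟩ := hf g
  obtain ⟨x, hx, e⟩ := prn_iff.1 h g
  exact ⟨f x, by rw [← map_cj', ← Subgroup.map_sup]; exact mem_map_of_mem f hx,
    by rw [← map_cj', ← map_cj', e]⟩

theorem prn_of_map {f : G →* G'} (hk : f.ker ≤ H) (h : IsPronormal (H.map f)) :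
    IsPronormal H := prn_iff.2 fun g => by
  obtain ⟨x, hx, e⟩ := prn_iff.1 h (f g)
  rw [← map_cj', ← Subgroup.map_sup] at hx
  obtain ⟨x, hx, rfl⟩ := hx
  have : ∀ y, f.ker ≤ cj y H := fun y => (cj_of_norm (le_normalizer_of_normal (mem_top y))).ge.trans
    (cj_mono y hk)
  exact ⟨x, hx, map_injective_of_ker_le f (this g) (this x) (by rwa [map_cj', map_cj'])⟩

theorem prn_cj (g : G) (h : IsPronormal H) : IsPronormal (cj g H) :=
  prn_map h (MulAut.conj g).surjective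

theorem prn_subgroupOf (h : H ≤ M) : IsPronormal (H.subgroupOf M) ↔
    ∀ g ∈ M, ∃ x ∈ H ⊔ cj g H, cj g H = cj x H := by
  have e : ∀ g : M, (cj g (H.subgroupOf M)).map M.subtype = cj (g : G) H := fun g => by
    rw [map_cj', map_subgroupOf_eq_of_le h]; rfl
  constructor
  · intro h' g hg
    obtain ⟨x, hx, e'⟩ := prn_iff.1 h' ⟨g, hg⟩
    refine ⟨x, ?_, by rw [← e ⟨g, hg⟩, ← e x, e']⟩
    rw [← e ⟨g, hg⟩, ← map_subgroupOf_eq_of_le h, subgroupOf_map_subtype', ← Subgroup.map_sup]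
    exact mem_map_of_mem _ hx
  · refine fun h' => prn_iff.2 fun g => ?_
    obtain ⟨x, hx, e'⟩ := h' g g.2
    rw [← e g, ← map_subgroupOf_eq_of_le h, subgroupOf_map_subtype', ← Subgroup.map_sup] at hx
    obtain ⟨x, hx, rfl⟩ := hx
    exact ⟨x, hx, map_injective M.subtype_injective (by rw [e, e]; exact e')⟩

/-- all overgroups of Sylow `p`-subgroups are pronormal -/
def PrnX (p : ℕ) (G : Type*) [Group G] : Prop :=
  ∀ K : Subgroup G, (∃ P : Sylow p G, (P : Subgroup G) ≤ K) → IsPronormal K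

variable [Finite G] [hp : Fact p.Prime]

theorem PrnX.map (h : PrnX p G) {f : G →* G'} (hf : Function.Surjective f) : PrnX p G' := by
  rintro K ⟨P, hP⟩
  obtain ⟨P, rfl⟩ := Sylow.mapSurjective_surjective hf p P
  rw [← map_comap_eq_self_of_surjective hf K]
  exact prn_map (h _ ⟨P, map_le_iff_le_comap.1 hP⟩) hf

theorem PrnX.of_map {f : G →* G'} (hf : Function.Surjective f) (hk : IsPGroup p f.ker)
    (h : PrnX p G') : PrnX p G := by
  rintro K ⟨P, hP⟩
  exact prn_of_map ((IsPGroup.le_sylow_of_normal hk P).trans hP)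
    (h _ ⟨P.mapSurjective hf, map_mono hP⟩)

theorem prnX_iff : PrnX p M ↔ ∀ K P, SylowIn p P M → P ≤ K → K ≤ M →
    ∀ g ∈ M, ∃ x ∈ K ⊔ cj g K, cj g K = cj x K := by
  constructor
  · intro h K P hP hPK hK
    obtain ⟨Q, rfl⟩ := sylow_of_sylowIn hP
    exact (prn_subgroupOf hK).1 (h _ ⟨Q, map_le_iff_le_comap.1 hPK⟩)
  · rintro h K ⟨P, hP⟩
    rw [← subgroupOf_map_subtype' K]
    exact (prn_subgroupOf (map_subtype_le K)).2
      (h _ _ (sylowIn_of_sylow P) (map_mono hP) (map_subtype_le K))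

theorem PrnX.sub (h : PrnX p G) {P : Subgroup G} (hP : SylowIn p P ⊤) (hM : P ≤ M) : PrnX p M :=
  prnX_iff.2 fun K Q hQ hQK _ g _ => by
    obtain ⟨a, -, rfl⟩ := Sylow_trans (pHall_subl hM le_top hP) hQ
    obtain ⟨R, hR⟩ := sylow_of_sylowIn_top (pHallJsub (mem_top a) hP)
    exact prn_iff.1 (h K ⟨R, hR ▸ hQK⟩) g

omit hp [Finite G] in
theorem map_norm_of_prn [A.Normal] (h : IsPronormal H) :
    N[H].map (QuotientGroup.mk' A) = N[H.map (QuotientGroup.mk' A)] := by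
  refine le_antisymm (le_normalizer_map _) fun g hg => ?_
  obtain ⟨g, rfl⟩ := QuotientGroup.mk'_surjective A g
  obtain ⟨x, hx, e⟩ := prn_iff.1 h g
  have h1 : QuotientGroup.mk' A x ∈ H.map (QuotientGroup.mk' A) := by
    have := mem_map_of_mem (QuotientGroup.mk' A) hx
    rwa [Subgroup.map_sup, map_cj', cj_of_norm hg, sup_idem] at this
  rw [eq_comm, cj_eq_iff, ← cj_mul] at e
  have h2 := mem_map_of_mem (QuotientGroup.mk' A) (mem_norm.2 e.symm)
  simpa using mul_mem (map_mono le_normalizer h1) h2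

theorem prn_in_normal [hn : A.Normal] (hA : PrnX p A) {S : Subgroup G} (hS : SylowIn p S ⊤)
    (hSH : S ≤ H) (hN : PrnX p N[A ⊓ S]) {a : G} (ha : a ∈ A) :
    ∃ x ∈ H ⊔ cj a H, cj a H = cj x H := by
  set T := A ⊓ S
  have hT : SylowIn p T A := Sylow_setI_normal (BG.normal_top A) hS
  have hT0 : T ≤ A ⊓ H := inf_le_inf_left A hSH
  have hT' := pHall_subl hT0 inf_le_left hT
  have hH0 : A ⊓ H ⊴ H := ⟨inf_le_right, normsI le_normalizer_of_normal le_normalizer⟩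
  have hF := Frattini_arg hH0 hT'
  obtain ⟨y, hy, e1⟩ := prnX_iff.1 hA _ _ hT hT0 inf_le_left a ha
  set K := H ⊔ cj a H
  have hyK : y ∈ K := sup_le_sup inf_le_right (cj_mono a inf_le_right) hy
  rw [eq_comm, cj_eq_iff, ← cj_mul] at e1
  have e2 : cj (y⁻¹ * a) (A ⊓ H) = A ⊓ H := e1.symm
  obtain ⟨c, hc, e3⟩ := Sylow_trans hT' (pHallJnorm (mem_norm.2 e2) hT')
  set d := c⁻¹ * (y⁻¹ * a)
  have hd : d ∈ N[T] := mem_norm.2 (by rw [cj_mul, e3, cj_inv_cj])
  have hd' : d ∈ N[A ⊓ H] := mul_mem (inv_mem (le_normalizer hc)) (mem_norm.2 e2)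
  have hcK : c ∈ K := mem_sup_left hc.2
  have hdK : cj d H ≤ K := by
    rw [cj_mul, cj_mul]
    exact cj_le_of_mem (inv_mem hcK) (cj_le_of_mem (inv_mem hyK) le_sup_right)
  have hSN : S ≤ N[T] := normsI le_normalizer_of_normal le_normalizer
  obtain ⟨x, hx, e4⟩ := prnX_iff.1 hN (H ⊓ N[T]) S (pHall_subl hSN le_top hS) (le_inf hSH hSN)
    inf_le_right d hd
  have hx' : x ∈ N[A ⊓ H] := sup_le (inf_le_left.trans hH0.norm)
    (cj_le_of_mem hd' (inf_le_left.trans hH0.norm)) hx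
  have hxK : x ∈ K := sup_le (inf_le_left.trans le_sup_left) ((cj_mono d inf_le_left).trans hdK) hx
  refine ⟨y * (c * x), mul_mem hyK (mul_mem hcK hxK), ?_⟩
  rw [cj_mul, cj_mul, show cj x H = cj d H by
    rw [← hF, cj_sup, cj_sup, e4, cj_of_norm hx', cj_of_norm hd'], ← cj_mul, ← cj_mul]
  congr 1
  simp [d]

theorem prnX_of_normal [hn : A.Normal] (hA : PrnX p A) (hQ : PrnX p (G ⧸ A)) (hT : SylowIn p T A)
    (hN : PrnX p N[T]) (h : ∀ K : Subgroup G, (∃ P : Sylow p G, (P : Subgroup G) ≤ K) →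
      N[K].map (QuotientGroup.mk' A) = N[K.map (QuotientGroup.mk' A)]) : PrnX p G := by
  rintro K ⟨S, hS⟩
  have hf := QuotientGroup.mk'_surjective A
  obtain ⟨b, -, e⟩ := Sylow_trans hT (Sylow_setI_normal (BG.normal_top A) (sylowIn_top S))
  have hN' : PrnX p N[A ⊓ S] := by
    rw [e, N_cj]
    exact hN.map (f := (cjEquiv b N[T]).toMonoidHom) (cjEquiv b N[T]).surjective
  refine prn_iff.2 fun g => ?_
  obtain ⟨x, hx, e1⟩ := prn_iff.1 (hQ (K.map (QuotientGroup.mk' A))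
    ⟨S.mapSurjective hf, map_mono hS⟩) (QuotientGroup.mk' A g)
  rw [← map_cj', ← Subgroup.map_sup] at hx
  obtain ⟨x, hx, rfl⟩ := hx
  rw [eq_comm, cj_eq_iff, ← cj_mul, eq_comm, ← mem_norm, ← h K ⟨S, hS⟩] at e1
  obtain ⟨n, hn', e2⟩ := e1
  have ha : x⁻¹ * g * n⁻¹ ∈ A := (QuotientGroup.eq_one_iff _).1 (by
    change QuotientGroup.mk' A _ = 1
    rw [map_mul, map_inv, e2]; simp)
  obtain ⟨z, hz, e3⟩ := prn_in_normal hA (sylowIn_top S) hS hN' ha
  rw [cj_mul, cj_of_norm (inv_mem hn')] at hz e3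
  refine ⟨x * z, mul_mem hx (sup_le (c := K ⊔ cj g K) le_sup_left ?_ hz), by rw [cj_mul, ← e3, ← cj_mul]; simp⟩
  rw [cj_mul]
  exact cj_le_of_mem (inv_mem hx) le_sup_right

theorem prnX_norm_iff [A.Normal] (hT : SylowIn p T A) [(T.subgroupOf N[T]).Normal] :
    PrnX p (N[T] ⧸ T.subgroupOf N[T]) ↔ PrnX p N[T] :=
  ⟨PrnX.of_map (QuotientGroup.mk'_surjective _) (by
    rw [QuotientGroup.ker_mk']; exact hT.pg.comap_subtype), fun h => h.map (QuotientGroup.mk'_surjective _)⟩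

theorem PrnX.norm [A.Normal] (h : PrnX p G) (hT : SylowIn p T A) : PrnX p N[T] := by
  obtain ⟨S, hS, hTS⟩ := Sylow_superset (le_top (a := T)) hT.pg
  have e : A ⊓ S = T := (Hall_eq_of_le hT (Sylow_setI_normal (BG.normal_top A) hS)
    (le_inf hT.le hTS)).symm
  exact h.sub hS (e ▸ normsI le_normalizer_of_normal le_normalizer)

end Cfsg.Agent.Gen2
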