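import Cfsg.Agent.Solv.CoprimeSylow
import Cfsg.Agent.Solv.Core
import Cfsg.Agent.Loc.Syl

/-! Casolo's count of the subnormalizer of a `p`-subgroup `H`: the elements normalizing some
`p`-subgroup above `H` are as many as the `x` with `H ≤ P ^ x` (`card_subnRel`). -/

set_option autoImplicit false
open Subgroup Finset
open Cfsg.Agent.Loc

namespace Cfsg.Agent.Gen2

/-- Weights whose sum over every principal lower set of `B` is `1`. -/
theorem exists_coweight {α : Type*} [PartialOrder α] [DecidableEq α] [DecidableLE α]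
    (B : Finset α) : ∃ w : α → ℤ, ∀ K ∈ B, ∑ K' ∈ B with K' ≤ K, w K' = 1 := by
  induction B using Finset.strongInduction with
  | H B ih =>
  rcases B.eq_empty_or_nonempty with rfl | hB
  · exact ⟨0, by simp⟩
  obtain ⟨m, hm, hmax⟩ := B.exists_maximal hB
  obtain ⟨w, hw⟩ := ih (B.erase m) (erase_ssubset hm)
  refine ⟨Function.update w m (1 - ∑ K' ∈ B.erase m with K' ≤ m, w K'), fun K hK => ?_⟩
  have hupd : ∀ K, ∑ K' ∈ B.erase m with K' ≤ K,
      Function.update w m (1 - ∑ K' ∈ B.erase m with K' ≤ m, w K') K' =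
      ∑ K' ∈ B.erase m with K' ≤ K, w K' := fun K => sum_congr rfl fun K' hK' =>
    Function.update_of_ne (ne_of_mem_erase (mem_filter.1 hK').1) _ _
  rw [← insert_erase hm, filter_insert, erase_insert (notMem_erase m B)]
  by_cases hKm : K = m
  · rw [hKm, if_pos le_rfl, sum_insert (by simp), hupd, Function.update_self, sub_add_cancel]
  · rw [if_neg fun h => hKm (le_antisymm (hmax hK h) h), hupd, hw K (mem_erase.2 ⟨hKm, hK⟩)]

/-- Inclusion–exclusion for a family closed under intersection, all of weight `1`. -/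
theorem sum_biUnion_eq_one {ι α : Type*} [SemilatticeInf ι] [DecidableEq ι] [DecidableEq α]
    (A : ι → Finset α) (hA : ∀ i j, A (i ⊓ j) = A i ∩ A j) (w : α → ℤ) (C : ι → Prop)
    (hC : ∀ i j, C i → C j → C (i ⊓ j)) (h1 : ∀ i, C i → ∑ a ∈ A i, w a = 1) (n : ℕ) :
    ∀ s : Finset ι, s.card ≤ n → s.Nonempty → (∀ i ∈ s, C i) → ∑ a ∈ s.biUnion A, w a = 1 := by
  induction n with
  | zero => exact fun s hs hne _ => absurd (card_pos.2 hne) (by omega)
  | succ n ih =>
    intro s hs ⟨i, hi⟩ hsC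
    rw [← insert_erase hi, biUnion_insert]
    rcases (s.erase i).eq_empty_or_nonempty with h | h
    · simpa [h] using h1 i (hsC i hi)
    have hc : (s.erase i).card ≤ n := by rw [card_erase_of_mem hi]; omega
    have h2 := sum_union_inter (s₁ := A i) (s₂ := (s.erase i).biUnion A) (f := w)
    have h3 : A i ∩ (s.erase i).biUnion A = ((s.erase i).image (i ⊓ ·)).biUnion A := by
      rw [image_biUnion, inter_biUnion]
      exact biUnion_congr rfl fun j _ => (hA i j).symm
    rw [h3, ih _ (card_image_le.trans hc) (h.image _) (fun j hj => by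
      obtain ⟨k, hk, rfl⟩ := mem_image.1 hj
      exact hC _ _ (hsC i hi) (hsC k (mem_of_mem_erase hk))), h1 i (hsC i hi),
      ih _ hc h fun j hj => hsC j (mem_of_mem_erase hj)] at h2
    linarith

variable {G : Type*} [Group G] {p : ℕ}

/-- `g ∈ L` normalizes a `p`-subgroup of `L` above `H`. -/
def SubnRel (p : ℕ) (L H : Subgroup G) (g : G) : Prop :=
  g ∈ L ∧ ∃ R : Subgroup G, IsPGroup p R ∧ H ≤ R ∧ R ≤ L ∧ g ∈ normalizer (R : Set G)

theorem isSubnormal_iff_subnRel [Finite G] [Fact p.Prime] {H : Subgroup G} (hH : IsPGroup p H)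
    {g : G} : (H.subgroupOf (H ⊔ zpowers g)).IsSubnormal ↔ SubnRel p ⊤ H g := by
  constructor
  · intro h
    refine ⟨trivial, pCoreOf p (H ⊔ zpowers g), isPGroup_pCoreOf _ _, ?_, le_top,
      le_normalizer_pCoreOf p _ (mem_sup_right (mem_zpowers g))⟩
    refine (map_subgroupOf_eq_of_le (le_sup_left : H ≤ H ⊔ zpowers g)).ge.trans ?_
    exact map_mono (Solv.le_pCore_of_isSubnormal h (isPGroup_subgroupOf hH _))
  · rintro ⟨-, R, hR, hHR, -, hg⟩
    have : (R.subgroupOf (H ⊔ zpowers g)).Normal := normal_subgroupOf_of_le_normalizer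
      (sup_le (hHR.trans le_normalizer) (zpowers_le.2 hg))
    have hR' : IsPGroup p (R.subgroupOf (H ⊔ zpowers g)) := hR.comap_subtype
    have := hR'.isNilpotent
    refine IsSubnormal.trans (K := R.subgroupOf (H ⊔ zpowers g)) (comap_mono hHR) ?_
      (Normal.isSubnormal inferInstance)
    generalize (H.subgroupOf (H ⊔ zpowers g)).subgroupOf _ = K
    induction K using WellFoundedGT.induction with
    | _ K ih =>
    by_cases hK : K = ⊤
    · exact hK ▸ IsSubnormal.top
    · exact IsSubnormal.step _ _ le_normalizer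
        (ih _ (Group.normalizerCondition_of_isNilpotent _ (lt_top_iff_ne_top.2 hK))) inferInstance

open scoped Classical in
/-- **Casolo's theorem**. -/
theorem card_subnRel [Fintype G] [Fact p.Prime] (H : Subgroup G) (hH : IsPGroup p H) :
    ∀ L P : Subgroup G, SylIn p P L → H ≤ L →
      (univ.filter (SubnRel p L H)).card = (univ.filter fun x => x ∈ L ∧ H ≤ cj x P).card := by
  induction H using WellFoundedGT.induction with
  | _ H ih =>
  intro L P hP hHL
  by_cases hS : SylIn p H L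
  · obtain ⟨x, hx, rfl⟩ := hP.exists_conj hS
    refine card_equiv (Equiv.mulRight x) fun g => ?_
    simp only [mem_filter, mem_univ, true_and, Equiv.coe_mulRight, ← cj_cj]
    constructor
    · rintro ⟨hg, R, hR, h1, h2, h3⟩
      rw [hS.max R h2 hR h1] at h3
      exact ⟨L.mul_mem hg hx, (cj_eq_of_mem_normalizer h3).ge⟩
    · rintro ⟨hg, h⟩
      refine ⟨by simpa using L.mul_mem hg (L.inv_mem hx), _, hH, le_rfl, hHL, ?_⟩
      exact inv_mem_iff.1 (mem_normalizer_of_cj_le (le_cj_iff.1 h))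
  let N := L ⊓ normalizer (H : Set G)
  have hHN : H ≤ N := le_inf hHL le_normalizer
  have := Fintype.ofFinite (Subgroup G)
  let B : Finset (Subgroup G) := univ.filter fun K => IsPGroup p K ∧ H < K ∧ K ≤ N
  have hB : ∀ {K}, K ∈ B ↔ IsPGroup p K ∧ H < K ∧ K ≤ N := by simp [B]
  obtain ⟨w, hw⟩ := exists_coweight B
  have hχ : ∀ R : Subgroup G, IsPGroup p R → H < R → R ≤ L → ∑ K ∈ B with K ≤ R, w K = 1 :=
    fun R hR h1 h2 => by
      rw [← hw (R ⊓ normalizer (H : Set G)) (hB.2 ⟨hR.to_le inf_le_left,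
        Solv.lt_inf_normalizer_of_isPGroup hR h1, inf_le_inf_right _ h2⟩)]
      exact sum_congr (filter_congr fun K hK => ⟨fun h => le_inf h ((hB.1 hK).2.2.trans inf_le_right),
        fun h => h.trans inf_le_left⟩) fun _ _ => rfl
  have key : ∀ M T : Subgroup G, N ≤ M → M ≤ L → ¬ SylIn p H M → SylIn p T M →
      ∑ x : G, (if x ∈ M ∧ H ≤ cj x T then (1 : ℤ) else 0) =
      ∑ g : G, ∑ K ∈ B with SubnRel p M K g, w K := fun M T hNM hML hHM hT => by
    have h1 : ∀ x, (if x ∈ M ∧ H ≤ cj x T then (1 : ℤ) else 0) =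
        ∑ K ∈ B with x ∈ M ∧ K ≤ cj x T, w K := fun x => by
      split_ifs with h
      · rw [← hχ (cj x T) (isPGroup_cj x hT.pg) (lt_of_le_of_ne h.2 fun e => hHM (e ▸ hT.conj_of_mem h.1))
          ((hT.conj_of_mem h.1).le.trans hML)]
        exact sum_congr (filter_congr fun K _ => (and_iff_right h.1).symm) fun _ _ => rfl
      · refine (sum_eq_zero fun K hK => absurd ?_ h).symm
        obtain ⟨h2, h3, h4⟩ := mem_filter.1 hK
        exact ⟨h3, (hB.1 h2).2.1.le.trans h4⟩
    simp only [h1, sum_filter]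
    rw [sum_comm, sum_comm (s := univ)]
    refine sum_congr rfl fun K hK => ?_
    obtain ⟨h2, h3, h4⟩ := hB.1 hK
    simp only [← sum_filter, sum_const]
    rw [ih K h3 h2 M T hT (h4.trans hNM)]
  obtain ⟨T, hT, -⟩ := exists_sylIn_ge hHN hH
  have hN := key N T le_rfl inf_le_left (fun h => hS (Solv.sylIn_of_sylIn_normalizer h)) hT
  have hL := key L P inf_le_left le_rfl hS hP
  have h2 : ∀ x, (x ∈ N ∧ H ≤ cj x T) ↔ x ∈ N := fun x => and_iff_left_of_imp fun hx =>
    (hT.conj_of_mem hx).le_of_le_normalizer hHN hH ((hT.conj_of_mem hx).le.trans inf_le_right)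
  simp only [h2] at hN
  refine Int.ofNat_inj.1 ?_
  rw [card_filter, card_filter]
  push_cast
  have hN' := sub_eq_zero.2 hN
  rw [hL, ← sub_eq_zero]
  refine Eq.trans ?_ hN'
  rw [← sum_sub_distrib, ← sum_sub_distrib]
  clear hN hN' hL
  refine sum_congr rfl fun g _ => ?_
  by_cases hg : g ∈ N
  · rw [if_pos hg, if_pos ⟨hg.1, H, hH, le_rfl, hHL, hg.2⟩]
    congr 1
    refine sum_congr (filter_congr fun K hK => ⟨?_, ?_⟩) fun _ _ => rfl
    · rintro ⟨-, R, hR, h3, h4, h5⟩
      exact ⟨hg, R ⊓ normalizer (H : Set G), hR.to_le inf_le_left,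
        le_inf h3 ((hB.1 hK).2.2.trans inf_le_right), inf_le_inf_right _ h4,
        zpowers_le.1 (Solv.le_normalizer_inf (zpowers_le.2 h5)
          (Solv.le_normalizer_normalizer (zpowers_le.2 hg.2)))⟩
    · rintro ⟨-, R, hR, h3, h4, h5⟩
      exact ⟨hg.1, R, hR, h3, h4.trans inf_le_left, h5⟩
  · rw [if_neg hg, sum_eq_zero (s := B.filter fun K => SubnRel p N K g)
      fun K hK => absurd (mem_filter.1 hK).2.1 hg, sub_zero, sub_eq_zero]
    split_ifs with h
    · obtain ⟨hgL, R, hR⟩ := h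
      let C : Subgroup G → Prop := fun R =>
        IsPGroup p R ∧ H ≤ R ∧ R ≤ L ∧ g ∈ normalizer (R : Set G)
      rw [← sum_biUnion_eq_one (fun R => B.filter (· ≤ R))
        (fun R R' => by simp only [le_inf_iff, filter_and]) w C
        (fun R R' h h' => ⟨h.1.to_le inf_le_left, le_inf h.2.1 h'.2.1, inf_le_left.trans h.2.2.1,
          zpowers_le.1 (Solv.le_normalizer_inf (zpowers_le.2 h.2.2.2) (zpowers_le.2 h'.2.2.2))⟩)
        (fun R h => hχ R h.1 (lt_of_le_of_ne h.2.1 fun e => hg ⟨hgL, e ▸ h.2.2.2⟩) h.2.2.1)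
        _ (univ.filter C) le_rfl ⟨R, by simpa using hR⟩ (by simp)]
      refine sum_congr (Finset.ext fun K => ?_) fun _ _ => rfl
      simp only [mem_biUnion, mem_filter, mem_univ, true_and]
      constructor
      · rintro ⟨R, hR, hK, hKR⟩
        exact ⟨hK, hgL, R, hR.1, hKR, hR.2.2⟩
      · rintro ⟨hK, -, R, h3, h4, h5⟩
        exact ⟨R, ⟨h3, (hB.1 hK).2.1.le.trans h4, h5⟩, hK, h4⟩
    · refine (sum_eq_zero fun K hK => absurd ?_ h).symm
      obtain ⟨h3, h4, R, h5, h6, h7⟩ := mem_filter.1 hK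
      exact ⟨h4, R, h5, (hB.1 h3).2.1.le.trans h6, h7⟩

/-- Casolo's theorem, in terms of subnormality. -/
theorem card_subnormalizer [Finite G] [Fact p.Prime] {H : Subgroup G} (hH : IsPGroup p H)
    (P : Sylow p G) : Nat.card {g : G // (H.subgroupOf (H ⊔ zpowers g)).IsSubnormal} =
      Nat.card {x : G // H ≤ cj x P} := by
  classical
  have := Fintype.ofFinite G
  have h := card_subnRel H hH ⊤ P (sylIn_top P) le_top
  simp only [isSubnormal_iff_subnRel hH, Nat.card_eq_fintype_card, Fintype.card_subtype]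
  convert h using 3
  simp

/-- Counting group elements by the image of a point. -/
theorem card_smul_mem {Ω : Type*} [MulAction G Ω] (ω : Ω) (T : Ω → Prop) :
    Nat.card {x : G // T (x • ω)} =
      Nat.card {t // T t ∧ ∃ x : G, x • ω = t} * Nat.card (MulAction.stabilizer G ω) := by
  rw [← Nat.card_prod]
  choose c hc using fun t : {t // T t ∧ ∃ x : G, x • ω = t} => t.2.2
  refine (Nat.card_congr (Equiv.ofBijective
    (fun z : {t // T t ∧ ∃ x : G, x • ω = t} × MulAction.stabilizer G ω =>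
      (⟨c z.1 * z.2, by rw [mul_smul, z.2.2, hc]; exact z.1.2.1⟩ : {x : G // T (x • ω)})) ⟨?_, ?_⟩)).symm
  · rintro ⟨t, s⟩ ⟨t', s'⟩ h
    have h1 : c t * s = c t' * s' := congrArg Subtype.val h
    have h2 : t = t' := Subtype.ext (by
      rw [← hc t, ← hc t', ← s.2, ← mul_smul, h1, mul_smul, s'.2, s.2])
    subst h2
    rw [Subtype.ext (mul_left_cancel h1 : (s : G) = s')]
  · rintro ⟨x, hx⟩
    refine ⟨⟨⟨x • ω, hx, x, rfl⟩, ⟨(c ⟨x • ω, hx, x, rfl⟩)⁻¹ * x, ?_⟩⟩, Subtype.ext (by simp)⟩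
    rw [MulAction.mem_stabilizer_iff, mul_smul, inv_smul_eq_iff, hc]

end Cfsg.Agent.Gen2
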