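import Cfsg.Agent.BG.Base6
import Cfsg.Agent.S0205
import Cfsg.Agent.Gen2.FrobCompl
import Cfsg.Agent.Gen2.CopClass

/-! TI-subgroups that are Hall in their normaliser (helper28): `ti_hall` (Hall in `G`),
`isFC_of_cent_eq` (a coprime action with `C(a) = C(A)` for all `a ≠ 1` makes `A` a Frobenius
complement), `ti_isFC`, `ti_struct` (π-separable case: `G = O N(H)`, `O H ⊴ G`). -/

set_option autoImplicit false

namespace Cfsg.Agent.Gen2

open Subgroup Cfsg.Agent.BG
open scoped commutatorElement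

variable {G : Type*} [Group G] [Finite G] {A H K M N O : Subgroup G}

theorem sol_or_of_coprime (h : (#A).Coprime #M) : Group.IsSolvable A ∨ Group.IsSolvable M := by
  rcases Nat.even_or_odd #A with h2 | h2
  · exact Or.inr (S0205.result (Nat.odd_iff.2 (Nat.two_dvd_ne_zero.1 fun h3 =>
      absurd (Nat.eq_one_of_dvd_coprimes h h2.two_dvd h3) (by decide))))
  · exact Or.inl (S0205.result h2)

omit [Finite G] in
theorem ti_norm_le (hTI : IsTISubset (H : Set G)) (hA : A ≤ H) (h1 : A ≠ ⊥) : N[A] ≤ N[H] := by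
  intro g hg
  obtain ⟨x, hx, hx1⟩ := A.bot_or_exists_ne_one.resolve_left h1
  by_contra h
  exact hx1 (hTI g h x (hA hx) (hA (conj_mem_of_norm hg hx)))

theorem ti_hall (hTI : IsTISubset (H : Set G)) (hH : (#H).Coprime (H.relIndex N[H])) :
    (#H).Coprime H.index := by
  refine Nat.coprime_of_dvd fun p hp h1 h2 => ?_
  have := Fact.mk hp
  obtain ⟨P, hP⟩ := Sylow_exists p H
  have hP' : SylowIn p P N[H] := subHall_Sylow (pHall_of_coprime (normG H) hH) ⟨hp, h1⟩ hP
  obtain ⟨Q, hQ, hPQ⟩ := Sylow_superset (M := ⊤) le_top hP.pg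
  have h3 : P = Q := nilpotent_sub_norm (pgroup_nil hQ.pg) hPQ
    (Hall_max hP' (le_inf hPQ (normG P)) (inf_le_right.trans
      (ti_norm_le hTI hP.le (Sylow_ne_bot hP h1))) (pgroupS inf_le_left hQ.pi)).le
  refine hQ.not_dvd (h2.trans ?_)
  rw [← h3, relIndex_top_right]
  exact index_dvd_of_le hP.le

theorem isFC_of_fpf (hn : H ≤ N[N]) (hN : N ≠ ⊥) (hH : H ≠ ⊥)
    (hf : ∀ h ∈ H, h ≠ 1 → ∀ n ∈ N, n * h = h * n → n = 1) : IsFC H := by
  have := (nontrivial_iff_ne_bot N).2 hN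
  have := (nontrivial_iff_ne_bot H).2 hH
  refine isFC_of_action (N.normalizerMonoidHom.comp (inclusion hn)) fun h h1 x hx => ?_
  refine Subtype.ext (hf h h.2 (fun h2 => h1 (Subtype.ext h2)) x x.2 ?_)
  have : (h : G) * x * (h : G)⁻¹ = x := congrArg Subtype.val hx
  exact (mul_inv_eq_iff_eq_mul.1 this).symm

theorem isFC_of_cent_eq (hA : A ≤ N[M]) (hc : (#M).Coprime #A) (h1 : ¬ M ≤ C[A])
    (h : ∀ a ∈ A, a ≠ 1 → M ⊓ C1[a] ≤ C[A]) : IsFC A := by
  have hA1 : A ≠ ⊥ := fun h => h1 (by rw [h, cent_bot]; exact le_top)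
  obtain ⟨p, hp, P, hP, hAP, hPA⟩ : ∃ p, p.Prime ∧ ∃ P, SylowIn p P M ∧ A ≤ N[P] ∧ ¬ P ≤ C[A] := by
    by_contra h2
    push Not at h2
    exact h1 (le_of_coprime_Sylow_le hA hc (sol_or_of_coprime hc.symm) h2)
  have := Fact.mk hp
  set K := P ⊓ C[A] with hK
  have hlt : K < P ⊓ N[K] := nilpotent_proper_norm (pgroup_nil hP.pg)
    (lt_of_le_of_ne inf_le_left fun h => hPA (h ▸ inf_le_right))
  have hAK : A ≤ N[K] := cents_norm (cents_symm inf_le_right)
  have hKA : A ⊓ K = ⊥ := by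
    rw [inf_comm]
    exact (disjoint_of_coprime_natCard
      (hc.coprime_dvd_left (card_dvd_of_le (inf_le_left.trans hP.le)))).eq_bot
  obtain ⟨e⟩ := quotient_isog hAK hKA
  refine (isFC_of_fpf (N := (P ⊓ N[K]) /ᵍ K) (morphim_norms _ (normsI hAP (norms_norm hAK)))
    (fun h => hlt.not_ge ((quotient_sub1 inf_le_right).1 h))
    (fun h => hA1 (by rw [← hKA]; exact (inf_eq_left.2 ((quotient_sub1 hAK).1 h)).symm))
    ?_).of_mulEquiv e.symm
  intro a ha0 ha1 x hx0 hax
  obtain ⟨a, ha, ha', rfl⟩ := mem_quotient_iff.1 ha0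
  obtain ⟨x, hx, hx', rfl⟩ := mem_quotient_iff.1 hx0
  have h2 : ⁅a, x⁆ ∈ K := by
    rw [← coset_eq_one (x := ⁅a, x⁆) (mul_mem (mul_mem (mul_mem ha' hx') (inv_mem ha')) (inv_mem hx')), coset_comm ha' hx',
      commutatorElement_eq_one_iff_mul_comm, hax]
  have h3 : ⁅a, x⁆ = 1 := comm_eq_one_of_commute' (n := #A)
    (by rw [orderOf_dvd_iff_pow_eq_one.1 (A.orderOf_dvd_natCard ha)]; exact Commute.one_left _)
    (hc.coprime_dvd_left (M.orderOf_dvd_natCard (hP.le h2.1))) (BG.mem_cent.1 h2.2 a ha).symm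
  refine coset_id ⟨hx.1, h a ha (fun h => ha1 (by rw [h, coset_one])) ⟨hP.le hx.1, ?_⟩⟩
  exact BG.mem_cent1.2 (commutatorElement_eq_one_iff_mul_comm.1 h3).symm

/-- a non-normal TI-subgroup with a normal complement of coprime order is a Frobenius complement -/
theorem ti_isFC (hTI : IsTISubset (H : Set G)) (hn : H ≤ N[N]) (hc : (#N).Coprime #H)
    (h1 : ¬ N ≤ N[H]) : IsFC H := by
  refine isFC_of_cent_eq hn hc (fun h => h1 (cents_norm h)) fun a ha ha1 x hx => ?_
  have hxH : x ∈ N[H] := ti_norm_le hTI (zpowers_le.2 ha) (by simpa using ha1)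
    (cent1_le_norm_zpowers a hx.2)
  refine BG.mem_cent.2 fun y hy => commutatorElement_eq_one_iff_mul_comm.1 ?_
  have h2 : ⁅y, x⁆ ∈ N ⊓ H := ⟨by
    rw [commutatorElement_def]
    exact N.mul_mem (conj_mem_of_norm (hn hy) hx.1) (N.inv_mem hx.1), by
    rw [commutatorElement_def, mul_assoc, mul_assoc, ← mul_assoc x]
    exact H.mul_mem hy (conj_mem_of_norm hxH (H.inv_mem hy))⟩
  rwa [(disjoint_of_coprime_natCard hc).eq_bot] at h2

omit [Finite G] in
theorem sSup_coprime_eq (n : ℕ) :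
    sSup {K : Subgroup G | K.Normal ∧ (#K).Coprime n} = piCoreOf (primesOf n)ᶜ ⊤ := by
  rw [pcore_top, piCore]
  congr 1
  ext K
  exact and_congr_right fun _ => ⟨fun h p hp h1 h2 => hp.ne_one
    (Nat.eq_one_of_dvd_coprimes h h1 h2.2), fun h => Nat.coprime_of_dvd fun p hp h1 h2 =>
    h p hp h1 ⟨hp, h2⟩⟩

theorem ti_struct (hTI : IsTISubset (H : Set G))
    (hH : (#H).Coprime H.index)
    (hsep : ∃ (n : ℕ) (M : Fin (n + 1) → Subgroup G), M 0 = ⊥ ∧ M (Fin.last n) = ⊤ ∧ Monotone M ∧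
      (∀ i, (M i).Normal) ∧ ∀ i : Fin n,
      (∀ q : ℕ, q.Prime → q ∣ (M i.castSucc).relIndex (M i.succ) → q ∣ #H) ∨
      ((M i.castSucc).relIndex (M i.succ)).Coprime #H) :
    piCoreOf (primesOf #H)ᶜ ⊤ ⊔ N[H] = ⊤ := by
  obtain ⟨n, M, h0, hl, hm, hn, hs⟩ := hsep
  by_contra hne
  have hHall : IsPiHallOf (primesOf #H) H ⊤ :=
    pHall_of_coprime le_top (by rwa [relIndex_top_right])
  have key : ∀ i, M i ≤ piCoreOf (primesOf #H)ᶜ ⊤ := by
    intro i
    induction i using Fin.induction with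
    | zero => exact h0 ▸ bot_le
    | succ i ih =>
      have hle : M i.castSucc ≤ M i.succ := hm i.castSucc_lt_succ.le
      have hK : PiGrp (primesOf #H)ᶜ (M i.castSucc) := pgroupS ih (pcore_pgroup _ _)
      have := hn i.castSucc
      have := hn i.succ
      rcases hs i with h | h
      · have hL := Hall_setI_normal (normal_top (M i.succ)) hHall
        have hKL : IsPiHallOf (primesOf #H)ᶜ (M i.castSucc) (M i.succ) :=
          pHall_mk hle hK fun q hq h1 => by simpa using ⟨hq, h q hq h1⟩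
        have hsd : ∀ B, IsPiHallOf (primesOf #H) B (M i.succ) → Sdprod (M i.castSucc) B (M i.succ) :=
          fun B hB => sdprod_of_pHall hKL ⟨hle, norm_of_normal _ _⟩ (by rwa [compl_compl])
        by_cases hb : H ⊓ M i.succ = ⊥
        · have := (hsd _ hL).sup
          rw [hb, sup_bot_eq] at this
          exact this ▸ ih
        refine absurd (eq_top_iff.2 fun g _ => ?_) hne
        have hL' := pHallJnorm (norm_of_normal (M i.succ) ⊤ (mem_top g)) hL
        obtain ⟨k, hk, hk'⟩ := SchurZassenhaus_trans (norm_of_normal _ _)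
          ((hsd _ hL).sup.trans (hsd _ hL').sup.symm) (pnat_coprime' hK hL.pi)
          (pnat_coprime' hK hL'.pi) (sol_or_of_coprime (pnat_coprime' hK hL.pi))
        rw [← mul_inv_cancel_left k g]
        refine mul_mem_sup (ih hk) (ti_norm_le hTI inf_le_left hb (mem_norm.2 ?_))
        rw [cj_mul, hk', cj_inv_cj]
      · exact pcore_max (normal_top _) (pgroup_of_idx hle hK fun q hq h1 h2 =>
          hq.ne_one (Nat.eq_one_of_dvd_coprimes h h1 h2.2))
  have := key (Fin.last n)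
  rw [hl] at this
  exact hne (eq_top_iff.2 (this.trans le_sup_left))

theorem ti_isFC_of_sup (hTI : IsTISubset (H : Set G)) (hnn : ¬ H.Normal) [N.Normal]
    (hc : (#N).Coprime #H) (h : N ⊔ N[H] = ⊤) : IsFC H :=
  ti_isFC hTI (norm_of_normal _ _) hc fun h1 => hnn (normalizer_eq_top_iff.1
    (by rw [← h, sup_eq_right.2 h1]))

end Cfsg.Agent.Gen2
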