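import Mathlib.NumberTheory.Bertrand

/-!
A strengthening of Bertrand's postulate (`exists_two_primes`): for `m ≥ 17` there are primes
`p`, `q` with `m / 2 < p`, `p + 3 ≤ q ≤ m`.
-/

namespace Cfsg.Agent.Gen2

open Nat Finset

theorem centralBinom_le_of_window (n a : ℕ) (hn : 2 < n)
    (h : ∀ p : ℕ, p.Prime → n < p → p ≤ 2 * n → p ∈ Icc a (a + 2)) :
    centralBinom n ≤ (2 * n) ^ sqrt (2 * n) * 4 ^ (2 * n / 3) * (2 * n) ^ 3 := by
  have h0 : 0 < 2 * n := by omega
  have key : ∀ x ∈ range (2 * n + 1), x ^ n.centralBinom.factorization x ≤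
      (if x ∈ Icc 1 (sqrt (2 * n)) then 2 * n else 1) *
      (if x ∈ {p ∈ range (2 * n / 3 + 1) | p.Prime} then x else 1) *
      (if x ∈ Icc a (a + 2) then 2 * n else 1) := by
    intro x hx
    have le : x ^ n.centralBinom.factorization x ≤ 2 * n := pow_factorization_choose_le h0
    have p1 : 1 ≤ if x ∈ Icc 1 (sqrt (2 * n)) then 2 * n else 1 := by split_ifs <;> omega
    have p2 : 1 ≤ if x ∈ {p ∈ range (2 * n / 3 + 1) | p.Prime} then x else 1 := by
      split_ifs with h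
      exacts [(mem_filter.1 h).2.one_lt.le, le_rfl]
    have p3 : 1 ≤ if x ∈ Icc a (a + 2) then 2 * n else 1 := by split_ifs <;> omega
    by_cases hp : x.Prime
    swap
    · rw [factorization_eq_zero_of_not_prime _ hp, pow_zero]
      exact Left.one_le_mul (Left.one_le_mul p1 p2) p3
    by_cases h1 : x ≤ sqrt (2 * n)
    · rw [if_pos (mem_Icc.2 ⟨hp.one_lt.le, h1⟩)]
      exact le_mul_of_le_of_one_le (le_mul_of_le_of_one_le le p2) p3
    by_cases h2 : x ≤ 2 * n / 3
    · rw [if_pos (mem_filter.2 ⟨mem_range.2 (by omega), hp⟩)]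
      refine le_mul_of_le_of_one_le (le_mul_of_one_le_of_le p1 ?_) p3
      exact (pow_right_mono₀ hp.one_lt.le
        (factorization_choose_le_one (sqrt_lt'.1 (not_le.1 h1)))).trans (pow_one x).le
    by_cases h3 : x ≤ n
    · rw [factorization_centralBinom_of_two_mul_self_lt_three_mul hn h3 (by omega), pow_zero]
      exact Left.one_le_mul (Left.one_le_mul p1 p2) p3
    rw [if_pos (h x hp (not_le.1 h3) (by have := mem_range.1 hx; omega))]
    exact le_mul_of_one_le_of_le (Left.one_le_mul p1 p2) le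
  rw [← n.prod_pow_factorization_centralBinom]
  refine (prod_le_prod' key).trans ?_
  rw [prod_mul_distrib, prod_mul_distrib, prod_ite_mem, prod_ite_mem, prod_ite_mem, prod_const,
    prod_const]
  refine mul_le_mul' (mul_le_mul' (pow_right_mono₀ h0 ?_) ?_) (pow_right_mono₀ h0 ?_)
  · simpa using card_le_card (inter_subset_right (s₁ := range (2 * n + 1))
      (s₂ := Icc 1 (sqrt (2 * n))))
  · exact (prod_le_prod_of_subset_of_one_le' inter_subset_right
      fun p hp _ => (mem_filter.1 hp).2.one_lt.le).trans (primorial_le_four_pow (2 * n / 3))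
  · exact (card_le_card inter_subset_right).trans (by rw [card_Icc]; omega)

theorem window_inequality {n : ℕ} (hn : 882 ≤ n) :
    n * ((2 * n) ^ sqrt (2 * n) * 4 ^ (2 * n / 3) * (2 * n) ^ 3) ≤ 4 ^ n := by
  obtain ⟨s, hs⟩ : ∃ s, sqrt (2 * n) = s := ⟨_, rfl⟩
  have h1 : s * s ≤ 2 * n := hs ▸ sqrt_le _
  have h2 : 2 * n < (s + 1) * (s + 1) := hs ▸ lt_succ_sqrt _
  have h3 : 42 ≤ s := by nlinarith
  have h4 : ∀ t, 6 ≤ t → 7 * t + 7 ≤ 2 ^ t := fun t ht => by
    induction t, ht using Nat.le_induction with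
    | base => norm_num
    | succ t _ ih => rw [pow_succ]; omega
  have h5 : 2 * n ≤ 4 ^ (s / 7) := by
    have : s + 1 ≤ 2 ^ (s / 7) := le_trans (by omega) (h4 _ (by omega))
    calc 2 * n ≤ 2 ^ (s / 7) * 2 ^ (s / 7) := h2.le.trans (Nat.mul_le_mul this this)
      _ = 4 ^ (s / 7) := (mul_pow 2 2 _).symm
  have h6 : s / 7 * (s + 4) + 2 * n / 3 ≤ n := by
    have : 7 * (s / 7) ≤ s := Nat.mul_div_le s 7
    have : 3 * (2 * n / 3) ≤ 2 * n := Nat.mul_div_le _ 3
    nlinarith
  rw [hs]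
  calc _ ≤ (2 * n) * ((2 * n) ^ s * 4 ^ (2 * n / 3) * (2 * n) ^ 3) :=
        Nat.mul_le_mul_right _ (by omega)
    _ = (2 * n) ^ (s + 4) * 4 ^ (2 * n / 3) := by ring
    _ ≤ (4 ^ (s / 7)) ^ (s + 4) * 4 ^ (2 * n / 3) := by gcongr
    _ ≤ 4 ^ n := by rw [← pow_mul, ← pow_add]; exact pow_right_mono₀ (by norm_num) h6

theorem exists_two_primes {m : ℕ} (hm : 17 ≤ m) :
    ∃ p q : ℕ, p.Prime ∧ q.Prime ∧ m < 2 * p ∧ p + 3 ≤ q ∧ q ≤ m := by
  by_cases h : m < 1764
  · have k : ∀ p q : ℕ, p.Prime → q.Prime → p + 3 ≤ q → (m < q → ∃ p q : ℕ, p.Prime ∧ q.Prime ∧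
        m < 2 * p ∧ p + 3 ≤ q ∧ q ≤ m) → m < 2 * p →
        ∃ p q : ℕ, p.Prime ∧ q.Prime ∧ m < 2 * p ∧ p + 3 ≤ q ∧ q ≤ m :=
      fun p q h1 h2 h3 h4 h5 => (lt_or_ge m q).elim h4 fun h6 => ⟨p, q, h1, h2, h5, h3, h6⟩
    refine k 1367 1373 (by norm_num) (by norm_num) (by norm_num) (fun h => ?_) (by omega)
    refine k 691 701 (by norm_num) (by norm_num) (by norm_num) (fun h => ?_) (by omega)
    refine k 353 359 (by norm_num) (by norm_num) (by norm_num) (fun h => ?_) (by omega)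
    refine k 181 191 (by norm_num) (by norm_num) (by norm_num) (fun h => ?_) (by omega)
    refine k 97 101 (by norm_num) (by norm_num) (by norm_num) (fun h => ?_) (by omega)
    refine k 53 59 (by norm_num) (by norm_num) (by norm_num) (fun h => ?_) (by omega)
    refine k 31 37 (by norm_num) (by norm_num) (by norm_num) (fun h => ?_) (by omega)
    refine k 19 23 (by norm_num) (by norm_num) (by norm_num) (fun h => ?_) (by omega)
    refine k 13 17 (by norm_num) (by norm_num) (by norm_num) (fun h => ?_) (by omega)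
    omega
  by_contra! hc
  classical
  obtain ⟨p, hp⟩ := exists_prime_lt_and_le_two_mul (m / 2) (by omega)
  have hex : ∃ p, p.Prime ∧ m / 2 < p ∧ p ≤ 2 * (m / 2) := ⟨p, hp⟩
  have ha := Nat.find_spec hex
  have := centralBinom_le_of_window (m / 2) (Nat.find hex) (by omega) fun q h1 h2 h3 => by
    have := Nat.find_min' hex ⟨h1, h2, h3⟩
    have := mt (hc _ q ha.1 h1 (by omega)) (by omega)
    exact mem_Icc.2 (by omega)
  exact (four_pow_lt_mul_centralBinom (m / 2) (by omega)).not_ge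
    ((Nat.mul_le_mul_left _ this).trans (window_inequality (by omega)))

end Cfsg.Agent.Gen2
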