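import Cfsg.Agent.SZ.U3
import Cfsg.Agent.Perm.FrobKernel
import Cfsg.Agent.PGrp.Cyclic

/-! The group `PSU₃(2) = 3² : Q₈` (helper28): `card_psu32`, `psu32`. -/

set_option autoImplicit false

namespace Cfsg.Agent.Gen2
open MulAction Subgroup Cfsg.Agent.Suz Cfsg.Agent.Classical

variable {F : Type*} [Field F] [Fintype F]

theorem card_psu32 (hF : Fintype.card F = 4) : Nat.card (PSU 3 F 2) = 72 := by
  have : Fact (Fintype.card F = 2 ^ 2) := ⟨hF⟩
  have := card_PSU_mul (F := F) (q := 2) (n := 3) (by omega)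
  rw [card_GU] at this
  simp [Finset.prod_range_succ, show ¬ Even 1 by decide] at this
  omega

theorem psu32 (hF : Fintype.card F = 4) : ∃ (N : Subgroup (PSU 3 F 2)) (_ : N.Normal), Nat.card N = 9 ∧
    (∀ x ∈ N, x ^ 3 = 1) ∧ Nonempty (PSU 3 F 2 ⧸ N ≃* QuaternionGroup 2) := by
  have : Fact (Fintype.card F = 2 ^ 2) := ⟨hF⟩
  have : CharP F 2 := charP_of_card_eq_prime_pow (f := 2) hF
  have hG := card_psu32 hF
  have : Finite (PSU 3 F 2) := Nat.finite_of_card_ne_zero (by omega)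
  let _ : MulAction (PSU 3 F 2) (isoPoints 3 F 2) := MulAction.compHom _
    (QuotientGroup.lift _ (toPermHom (SU 3 F 2) (isoPoints 3 F 2)) fun A hA => Equiv.ext (mem_center_iff_fix.1 hA))
  let π := QuotientGroup.mk' (center (SU 3 F 2))
  have hπ : ∀ A (x : isoPoints 3 F 2), π A • x = A • x := fun _ _ => rfl
  have m := uc_model (E := F) (q := 2)
  generalize uP F 2 = a at m
  generalize uT F 2 = t at m
  have tr : ∀ b, ∃ g : PSU 3 F 2, g • a = b := fun b => by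
    by_cases hb : b = a
    · exact ⟨1, by rw [hb, one_smul]⟩
    obtain ⟨x, y, -, e⟩ := m.surj b hb
    exact ⟨π (uU 2 x y * t), by rw [hπ, mul_smul, e]⟩
  have : IsPretransitive (PSU 3 F 2) (isoPoints 3 F 2) := .of_orbit tr
  have hc : Nat.card (stabilizer (PSU 3 F 2) a) = 8 := by
    have := (stabilizer (PSU 3 F 2) a).card_mul_index
    rw [index_stabilizer_of_transitive, ← Nat.card_eq_of_bijective _ m.bij, Finite.card_option, card_Un, hG] at this
    omega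
  have inj : ∀ x y x' y', Un 2 x y → Un 2 x' y' → π (uU 2 x y) = π (uU 2 x' y') → x = x' ∧ y = y' :=
    fun x y x' y' u u' e => m.inj x y x' y' u u' (by rw [← hπ, e, hπ])
  have hQ : ∀ g, g • a = a → ∃ x y, Un 2 x y ∧ π (uU 2 x y) = g := fun g hg => by
    obtain ⟨p, hp⟩ := ((Nat.bijective_iff_injective_and_card fun p : {p : F × F // Un 2 p.1 p.2} =>
      (⟨π (uU 2 p.1.1 p.1.2), m.fix _ _ p.2⟩ : stabilizer (PSU 3 F 2) a)).2 ⟨fun p p' e =>
        Subtype.ext (Prod.ext_iff.2 (inj _ _ _ _ p.2 p'.2 (congrArg Subtype.val e))), card_Un.trans hc.symm⟩).2 ⟨g, hg⟩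
    exact ⟨_, _, p.2, congrArg Subtype.val hp⟩
  have t2 : ∀ b ≠ a, ∃ g : PSU 3 F 2, g • a = a ∧ g • t • a = b := fun b hb =>
    let ⟨x, y, u, e⟩ := m.surj b hb; ⟨π (uU 2 x y), m.fix x y u, e⟩
  obtain ⟨N, hN, h1, h2⟩ := Perm.exists_frobenius_kernel (G := PSU 3 F 2) (Ω := isoPoints 3 F 2) fun g x y ne e e' => by
    obtain ⟨k, rfl⟩ := tr x
    obtain ⟨l, hl, r⟩ := t2 (k⁻¹ • y) fun r => ne (by rw [← r, smul_inv_smul])
    obtain ⟨x, z, u, r'⟩ := hQ ((k * l)⁻¹ * g * (k * l)) (by simp [mul_smul, hl, e, inv_smul_eq_iff])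
    obtain ⟨rfl, rfl⟩ := m.inj x z 0 0 u un_zero (by
      rw [m.zero, one_smul, ← hπ, r', mul_smul, mul_smul, mul_smul, r, smul_inv_smul, e', inv_smul_eq_iff, mul_smul, r,
        smul_inv_smul])
    simpa [m.zero, mul_assoc, eq_inv_mul_iff_mul_eq] using r'
  have fr : ∀ x ∈ N, x • a = a → x = 1 := fun x hx e => ((h1 x).1 hx).resolve_right fun r => r a e
  have hC := isComplement'_stabilizer (H := N) a (fun x e => Subtype.ext (fr x x.2 e)) fun g => h2.1 _ _
  have c9 : Nat.card N = 9 := by have := hC.card_mul_card; rw [hc, hG] at this; omega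
  refine ⟨N, hN, c9, fun x hx => ?_, ?_⟩
  · obtain ⟨z, hz⟩ := exists_prime_orderOf_dvd_card' (G := N) 3 (by rw [c9]; decide)
    rcases eq_or_ne x 1 with rfl | x1
    · simp
    obtain ⟨k, hk, e⟩ := t2 _ (mt (fr x hx) x1)
    obtain ⟨l, hl, e'⟩ := t2 _ (mt (fr z z.2) fun r => by rw [show z = 1 from Subtype.ext r] at hz; simp at hz)
    have := fr _ (mul_mem (inv_mem hx) (hN.1 z z.2 (k * l⁻¹))) (by
      simp [mul_smul, inv_smul_eq_iff, hl, ← e, ← e', inv_smul_eq_iff.2 hk.symm])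
    rw [inv_mul_eq_one.1 this, conj_pow, ← coe_pow, orderOf_dvd_iff_pow_eq_one.1 hz.dvd]; simp
  have sq : ∀ g : stabilizer (PSU 3 F 2) a, orderOf g = 2 → g.1 = π (uU 2 0 1) := fun g hg => by
    obtain ⟨x, y, u, e⟩ := hQ g g.2
    have h3 : π (uU 2 x y) * π (uU 2 x y) = 1 := by
      rw [e, ← pow_two, ← coe_pow, orderOf_dvd_iff_pow_eq_one.1 hg.dvd]; rfl
    rw [← map_mul, m.mul _ _ _ _ u u, ← π.map_one, ← m.zero] at h3
    obtain rfl : x = 0 := by simpa [CharTwo.add_self_eq_zero] using (inj _ _ _ _ (u.mul u) un_zero h3).2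
    rcases mul_eq_zero.1 (show y * (1 + y) = 0 by simpa [Un, mul_add, pow_two] using u) with rfl | r
    · rw [show g = 1 from Subtype.ext (e.symm.trans (by rw [m.zero, map_one]; rfl))] at hg; simp at hg
    rw [← e, ← CharTwo.add_eq_zero.1 r]
  rcases PGrp.isCyclic_or_quaternion (IsPGroup.of_card (p := 2) (n := 3) hc) fun K L hK hL => by
      obtain ⟨x, hx⟩ := exists_prime_orderOf_dvd_card' (G := K) 2 hK.symm.dvd
      obtain ⟨y, hy⟩ := exists_prime_orderOf_dvd_card' (G := L) 2 hL.symm.dvd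
      rw [← orderOf_coe] at hx hy
      rw [← eq_of_le_of_card_ge (zpowers_le.2 x.2) (by rw [hK, Nat.card_zpowers, hx]),
        ← eq_of_le_of_card_ge (zpowers_le.2 y.2) (by rw [hL, Nat.card_zpowers, hy]),
        Subtype.ext ((sq _ hx).trans (sq _ hy).symm)] with e | ⟨-, n, hn, ⟨e⟩⟩
  · obtain ⟨x, hx⟩ := exists_pow_q_ne (F := F) (q := 2)
    obtain ⟨y, u⟩ := exists_trace_eq (F := F) (q := 2) (c := x ^ (2 + 1)) (by rw [pow_succ x, mul_pow, pow_q_q, mul_comm])
    obtain ⟨z, u'⟩ := exists_trace_eq (F := F) (q := 2) (c := 1 ^ (2 + 1)) (by simp)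
    have := congrArg Subtype.val (e.isMulCommutative.1.1 ⟨π (uU 2 x y), m.fix x y u⟩ ⟨π (uU 2 1 z), m.fix 1 z u'⟩)
    rw [coe_mul, coe_mul, ← map_mul, ← map_mul, m.mul _ _ _ _ u u', m.mul _ _ _ _ u' u] at this
    exact absurd (by simpa [add_comm y] using (inj _ _ _ _ (Un.mul u u') (Un.mul u' u) this).2) hx
  have := Nat.card_congr e.toEquiv
  rw [hc, Nat.card_eq_fintype_card, QuaternionGroup.card] at this
  obtain rfl : n = 1 := Nat.pow_right_injective le_rfl (show 2 ^ n = 2 ^ 1 by omega)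
  exact ⟨hC.symm.QuotientMulEquiv.trans e⟩

end Cfsg.Agent.Gen2
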